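import Cfsg.Agent.H97.GaSpec2
import Cfsg.Agent.H18.FpfHom
import Cfsg.Agent.H8.SylowInf
import Cfsg.Agent.H2.PrimeCore

/-! GAG tower (S4841): basic facts on linear actions with Sylow stabilisers. -/

set_option autoImplicit false

namespace H97.Ga

universe u v

theorem dvd_card_of_dvd_index {A X : Type*} [Group A] [MulAction A X] [Finite X] {d : ℕ}
    (h : ∀ x : X, d ∣ (MulAction.stabilizer A x).index) : d ∣ Nat.card X := by
  classical
  have := Fintype.ofFinite (MulAction.orbitRel.Quotient A X)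
  rw [Nat.card_congr (MulAction.selfEquivSigmaOrbits A X), Nat.card_sigma]
  refine Finset.dvd_sum fun q _ => ?_
  have h1 := h q.out
  rwa [MulAction.index_stabilizer, ← Nat.card_coe_set_eq] at h1

section
variable {p : ℕ} {H : Type u} {V : Type v} [Group H] [AddCommGroup V] [Module (ZMod p) V]
  {ρ : Representation (ZMod p) H V}

theorem rho_mul (ρ : Representation (ZMod p) H V) (a b : H) (v : V) :
    ρ (a * b) v = ρ a (ρ b v) := by rw [map_mul]; rfl

theorem rho_inv_apply (ρ : Representation (ZMod p) H V) (a : H) (v : V) :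
    ρ a⁻¹ (ρ a v) = v := by rw [← rho_mul, inv_mul_cancel, map_one]; rfl

theorem rho_apply_inv (ρ : Representation (ZMod p) H V) (a : H) (v : V) :
    ρ a (ρ a⁻¹ v) = v := by rw [← rho_mul, mul_inv_cancel, map_one]; rfl

theorem rho_ne_zero (ρ : Representation (ZMod p) H V) (a : H) {v : V} (hv : v ≠ 0) :
    ρ a v ≠ 0 := fun h => hv (by rw [← rho_inv_apply ρ a v, h, map_zero])

theorem SR.fp (h : SR p ρ) : FP p ρ := fun g v hv hg => by
  obtain ⟨P, hP⟩ := h v hv
  obtain ⟨k, hk⟩ := P.isPGroup' ⟨g, (hP g).1 hg⟩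
  exact ⟨k, congrArg Subtype.val hk⟩

theorem FP.comp {K : Type*} [Group K] (h : FP p ρ) (f : K →* H) (hf : Function.Injective f) :
    FP p (V := V) (ρ.comp f) := fun g v hv hg => by
  obtain ⟨k, hk⟩ := h (f g) v hv hg
  exact ⟨k, hf (by rw [map_pow, hk, map_one])⟩

theorem SR.comp_normal [Fact p.Prime] [Finite H] (h : SR p ρ) (L : Subgroup H) [L.Normal] :
    SR p (V := V) (ρ.comp L.subtype) := fun v hv => by
  obtain ⟨P, hP⟩ := h v hv
  obtain ⟨Q, hQ⟩ := H8.exists_sylow_eq_subgroupOf_normal P L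
  exact ⟨Q, fun g => by rw [hQ, Subgroup.mem_subgroupOf, ← hP]; rfl⟩

theorem SR.comp_equiv {K : Type*} [Group K] (h : SR p ρ) (e : K ≃* H) :
    SR p (V := V) (ρ.comp e.toMonoidHom) := fun v hv => by
  obtain ⟨P, hP⟩ := h v hv
  refine ⟨P.comapOfInjective e.toMonoidHom e.injective (fun x _ => e.surjective x), fun g => ?_⟩
  exact hP (e g)

/-- The restriction to a normal subgroup isomorphic to `K`. -/
theorem SR.comp_normal_equiv [Fact p.Prime] [Finite H] {K : Type*} [Group K] (h : SR p ρ)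
    (L : Subgroup H) [L.Normal] (e : L ≃* K) :
    SR p (V := V) ((ρ.comp L.subtype).comp e.symm.toMonoidHom) :=
  (h.comp_normal L).comp_equiv e.symm

theorem FP.eq_one_of_coprime (h : FP p ρ) {g : H} {n : ℕ} (hn : g ^ n = 1) (hc : n.Coprime p)
    {v : V} (hv : v ≠ 0) (hg : ρ g v = v) : g = 1 := by
  obtain ⟨k, hk⟩ := h g v hv hg
  have h1 := orderOf_dvd_of_pow_eq_one hn
  have h2 := orderOf_dvd_of_pow_eq_one hk
  exact orderOf_eq_one_iff.1 (Nat.eq_one_of_dvd_coprimes (hc.pow_right k) h1 h2)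

theorem FP.neg_of_order_two [hp : Fact p.Prime] (h : FP p ρ) (hp2 : p ≠ 2) {t : H}
    (ht : orderOf t = 2) (v : V) : ρ t v = -v := by
  have h2 : t ^ 2 = 1 := by rw [← ht, pow_orderOf_eq_one]
  have h1 : t ≠ 1 := fun e => by rw [e, orderOf_one] at ht; omega
  by_contra hne
  have h3 : ρ t v + v ≠ 0 := fun e => hne (eq_neg_of_add_eq_zero_left e)
  refine h1 (h.eq_one_of_coprime h2 ((Nat.coprime_primes Nat.prime_two hp.out).2 hp2.symm) h3 ?_)
  rw [map_add, ← rho_mul, ← pow_two, h2, map_one, add_comm]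
  rfl

/-- The action on the multiplicative copy of `V`. -/
def toAut (ρ : Representation (ZMod p) H V) : H →* MulAut (Multiplicative V) where
  toFun g :=
    { toFun := fun v => Multiplicative.ofAdd (ρ g v.toAdd)
      invFun := fun v => Multiplicative.ofAdd (ρ g⁻¹ v.toAdd)
      left_inv := fun v => by simp
      right_inv := fun v => by simp
      map_mul' := fun a b => by simp [ofAdd_add] }
  map_one' := by ext v; simp
  map_mul' a b := by ext v; simp

theorem toAut_apply (ρ : Representation (ZMod p) H V) (g : H) (v : Multiplicative V) :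
    toAut ρ g v = Multiplicative.ofAdd (ρ g v.toAdd) := rfl

theorem FP.isCyclic [hp : Fact p.Prime] [Finite H] [Finite V] [Nontrivial V] (h : FP p ρ) {r : ℕ}
    [hr : Fact r.Prime] (hr2 : r ≠ 2) (hrp : r ≠ p) {Q : Subgroup H} (hQ : IsPGroup r Q) :
    IsCyclic Q := by
  refine H18.isCyclic_of_fpf_hom ((toAut ρ).comp Q.subtype) (fun a ha w hw => ?_) hr2 hQ
  by_contra hw1
  obtain ⟨k, hk⟩ := hQ a
  refine ha (Subtype.ext (h.eq_one_of_coprime (n := r ^ k) (congrArg Subtype.val hk)
    (((Nat.coprime_primes hr.out hp.out).2 hrp).pow_left k) (v := w.toAdd) hw1 ?_))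
  exact congrArg Multiplicative.toAdd hw

theorem inv_unique [Fact p.Prime] (hi : Function.Injective ρ) (h : FP p ρ) (hp2 : p ≠ 2)
    {s t : H} (hs : orderOf s = 2) (ht : orderOf t = 2) : s = t :=
  hi (LinearMap.ext fun v => by rw [h.neg_of_order_two hp2 hs, h.neg_of_order_two hp2 ht])

theorem inv_central [Fact p.Prime] (hi : Function.Injective ρ) (h : FP p ρ) (hp2 : p ≠ 2)
    {t : H} (ht : orderOf t = 2) (g : H) : g * t = t * g :=
  hi (LinearMap.ext fun v => by
    rw [rho_mul, rho_mul, h.neg_of_order_two hp2 ht, h.neg_of_order_two hp2 ht, map_neg])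

theorem Hyp.inv_unique [Fact p.Prime] (h : Hyp p ρ) (hp2 : p ≠ 2) {s t : H}
    (hs : orderOf s = 2) (ht : orderOf t = 2) : s = t :=
  Ga.inv_unique h.inj h.sr.fp hp2 hs ht

/-- The action on the nonzero vectors. -/
@[reducible] def nzAct (ρ : Representation (ZMod p) H V) : MulAction H {v : V // v ≠ 0} where
  smul g v := ⟨ρ g v.1, rho_ne_zero ρ g v.2⟩
  one_smul v := Subtype.ext (by change ρ 1 v.1 = v.1; rw [map_one]; rfl)
  mul_smul a b v := Subtype.ext (rho_mul ρ a b v.1)

theorem card_nz [Finite V] : Nat.card {v : V // v ≠ 0} = Nat.card V - 1 := by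
  classical
  have := Fintype.ofFinite V
  simp [Nat.card_eq_fintype_card, Fintype.card_subtype_compl]

theorem sylow_index_eq [Fact p.Prime] [Finite H] (P Q : Sylow p H) :
    (P : Subgroup H).index = (Q : Subgroup H).index := by
  have h1 := (P : Subgroup H).index_mul_card
  have h2 := (Q : Subgroup H).index_mul_card
  rw [Nat.card_congr (Sylow.equiv P Q).toEquiv, ← h2] at h1
  exact Nat.eq_of_mul_eq_mul_right Nat.card_pos h1

theorem Hyp.index_sylow [Fact p.Prime] [Finite H] [Finite V] [Nontrivial V] (h : Hyp p ρ)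
    (P : Sylow p H) : (P : Subgroup H).index = Nat.card V - 1 := by
  let _ := nzAct ρ
  obtain ⟨v, hv⟩ := exists_ne (0 : V)
  obtain ⟨Q, hQ⟩ := h.sr v hv
  have h1 : MulAction.stabilizer H (⟨v, hv⟩ : {v : V // v ≠ 0}) = Q := by
    ext g
    rw [MulAction.mem_stabilizer_iff, ← hQ, Subtype.ext_iff]
    rfl
  have : MulAction.IsPretransitive H {v : V // v ≠ 0} :=
    ⟨fun a b => (h.tr a.1 b.1 a.2 b.2).imp fun g hg => Subtype.ext hg⟩
  rw [sylow_index_eq P Q, ← h1, MulAction.index_stabilizer_of_transitive, card_nz]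

end

/-- A normal subgroup of order dividing `2 p ^ k` has order at most two when `O_p = 1`. -/
theorem cent_eq {H : Type u} [Group H] [Finite H] {p : ℕ} [hp : Fact p.Prime]
    (hO : Cfsg.pCore p H = ⊥) (C : Subgroup H) [C.Normal] {k : ℕ}
    (hC : Nat.card C ∣ 2 * p ^ k) : Nat.card C ∣ 2 := by
  obtain ⟨P⟩ : Nonempty (Sylow p C) := inferInstance
  have h1 : (P : Subgroup C).index ∣ 2 :=
    (((Nat.Prime.coprime_iff_not_dvd hp.out).2 P.not_dvd_index).symm.pow_right k).dvd_of_dvd_mul_right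
      ((Subgroup.index_dvd_card _).trans hC)
  have h2 : (P : Subgroup C).Normal := by
    rcases (Nat.dvd_prime Nat.prime_two).1 h1 with h | h
    · rw [Subgroup.index_eq_one.1 h]; infer_instance
    · exact Subgroup.normal_of_index_eq_two h
  have h3 := Sylow.characteristic_of_normal P h2
  have h4 : (P : Subgroup C).map C.subtype ≤ Cfsg.pCore p H :=
    le_sSup ⟨inferInstance, P.isPGroup'.map _⟩
  rw [hO, le_bot_iff, Subgroup.map_eq_bot_iff_of_injective _ C.subtype_injective] at h4
  rwa [h4, Subgroup.index_bot] at h1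

theorem cent_inf {H : Type u} [Group H] (L : Subgroup H) :
    Subgroup.centralizer (L : Set H) ⊓ L = (Subgroup.center L).map L.subtype := by
  ext x
  constructor
  · rintro ⟨h1, h2⟩
    exact ⟨⟨x, h2⟩, Subgroup.mem_center_iff.2 fun g => Subtype.ext (h1 g g.2), rfl⟩
  · rintro ⟨y, hy, rfl⟩
    exact ⟨fun g hg => congrArg Subtype.val (Subgroup.mem_center_iff.1 hy ⟨g, hg⟩), y.2⟩

theorem card_cent_dvd {H : Type u} [Group H] [Finite H] (L : Subgroup H) [L.Normal] :
    Nat.card (Subgroup.centralizer (L : Set H)) ∣ Nat.card (Subgroup.center L) * L.index := by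
  set C := Subgroup.centralizer (L : Set H)
  have h1 : Nat.card (L.subgroupOf C) = Nat.card (Subgroup.center L) := by
    rw [← Subgroup.card_map_of_injective C.subtype_injective, Subgroup.subgroupOf_map_subtype,
      inf_comm, cent_inf, Subgroup.card_map_of_injective L.subtype_injective]
  rw [← (L.subgroupOf C).card_mul_index, h1]
  exact Nat.mul_dvd_mul_left _ (Subgroup.relIndex_dvd_index_of_normal L C)

theorem cent_eq_center {H : Type u} [Group H] [Finite H] (L : Subgroup H)
    (hC : Nat.card (Subgroup.centralizer (L : Set H)) ∣ 2)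
    (hZ : Nat.card (Subgroup.center L) = 2) :
    Subgroup.centralizer (L : Set H) = (Subgroup.center L).map L.subtype := by
  refine (Subgroup.eq_of_le_of_card_ge (by rw [← cent_inf]; exact inf_le_left) ?_).symm
  rw [Subgroup.card_map_of_injective L.subtype_injective, hZ]
  exact Nat.le_of_dvd two_pos hC

section count
variable {p : ℕ} {H : Type u} {V : Type v} [Group H] [AddCommGroup V] [Module (ZMod p) V]
  {ρ : Representation (ZMod p) H V}

/-- The fixed space of a subgroup. -/
def fixS (ρ : Representation (ZMod p) H V) (U : Subgroup H) : Submodule (ZMod p) V where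
  carrier := {v | ∀ g ∈ U, ρ g v = v}
  zero_mem' g _ := map_zero _
  add_mem' ha hb g hg := by rw [map_add, ha g hg, hb g hg]
  smul_mem' c v hv g hg := by rw [map_smul, hv g hg]

theorem mem_fixS {U : Subgroup H} {v : V} : v ∈ fixS ρ U ↔ ∀ g ∈ U, ρ g v = v := Iff.rfl

theorem SR.stab_eq (h : SR p ρ) (U : Sylow p H) {v : V} (hv : v ≠ 0)
    (hU : v ∈ fixS ρ (U : Subgroup H)) (g : H) : ρ g v = v ↔ g ∈ (U : Subgroup H) := by
  obtain ⟨P, hP⟩ := h v hv
  rw [hP, U.is_maximal' P.isPGroup' fun s hs => (hP s).1 (hU s hs)]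

theorem mem_fixS_smul (U : Sylow p H) (g : H) {v : V} (hv : v ∈ fixS ρ (U : Subgroup H)) :
    ρ g v ∈ fixS ρ ((g • U : Sylow p H) : Subgroup H) := fun s hs => by
  rw [Sylow.coe_subgroup_smul, Subgroup.mem_pointwise_smul_iff_inv_smul_mem] at hs
  have h1 := hv _ hs
  simp only [MulAut.smul_def, MulAut.conj_inv_apply] at h1
  conv_rhs => rw [← h1]
  rw [← rho_mul, ← rho_mul]
  congr 2
  group

theorem card_fixS_eq [Fact p.Prime] [Finite H] [Finite V] (P Q : Sylow p H) :
    Nat.card (fixS ρ (P : Subgroup H)) = Nat.card (fixS ρ (Q : Subgroup H)) := by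
  have key : ∀ P Q : Sylow p H,
      Nat.card (fixS ρ (P : Subgroup H)) ≤ Nat.card (fixS ρ (Q : Subgroup H)) := fun P Q => by
    obtain ⟨g, rfl⟩ := MulAction.exists_smul_eq H P Q
    refine Nat.card_le_card_of_injective (fun v => ⟨ρ g v.1, mem_fixS_smul P g v.2⟩)
      fun a b hab => Subtype.ext ?_
    have h1 : ρ g a.1 = ρ g b.1 := congrArg Subtype.val hab
    rw [← rho_inv_apply ρ g a.1, h1, rho_inv_apply]
  exact le_antisymm (key P Q) (key Q P)

theorem card_nz_sub [Finite V] (W : Submodule (ZMod p) V) :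
    Nat.card {v : {v : V // v ≠ 0} // v.1 ∈ W} = Nat.card W - 1 := by
  rw [← card_nz (V := W)]
  exact Nat.card_congr
    { toFun := fun v => ⟨⟨v.1.1, v.2⟩, fun e => v.1.2 (congrArg Subtype.val e)⟩
      invFun := fun v => ⟨⟨v.1.1, fun e => v.2 (Subtype.ext e)⟩, v.1.2⟩
      left_inv := fun _ => rfl
      right_inv := fun _ => rfl }

theorem SR.card_sub_one [Fact p.Prime] [Finite H] [Finite V] (h : SR p ρ) (U : Sylow p H) :
    Nat.card V - 1 = Nat.card (Sylow p H) * (Nat.card (fixS ρ (U : Subgroup H)) - 1) := by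
  classical
  choose st hst using fun v : {v : V // v ≠ 0} => h v.1 v.2
  have := Fintype.ofFinite (Sylow p H)
  rw [← card_nz, ← Nat.card_congr (Equiv.sigmaFiberEquiv st), Nat.card_sigma,
    Nat.card_eq_fintype_card (α := Sylow p H), ← smul_eq_mul, ← Finset.card_univ,
    ← Finset.sum_const]
  refine Finset.sum_congr rfl fun Q _ => ?_
  rw [card_fixS_eq U Q, ← card_nz_sub]
  refine Nat.card_congr (Equiv.subtypeEquivRight fun v => ⟨?_, fun hv => ?_⟩)
  · rintro rfl g hg
    exact (hst v g).2 hg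
  · exact (Sylow.ext (Q.is_maximal' (st v).isPGroup' fun s hs => (hst v s).1 (hv s hs)))

theorem SR.fixS_inf (h : SR p ρ) {P Q : Sylow p H} (hPQ : P ≠ Q) :
    fixS ρ (P : Subgroup H) ⊓ fixS ρ (Q : Subgroup H) = ⊥ := by
  rw [eq_bot_iff]
  rintro v ⟨h1, h2⟩
  by_contra hv
  exact hPQ (Sylow.ext (Subgroup.ext fun g => by
    rw [← h.stab_eq P hv h1, h.stab_eq Q hv h2]))

theorem card_mul_le_of_inf [Finite V] {A B : Submodule (ZMod p) V} (h : A ⊓ B = ⊥) :
    Nat.card A * Nat.card B ≤ Nat.card V := by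
  rw [← Nat.card_prod]
  refine Nat.card_le_card_of_injective (fun x => x.1.1 + x.2.1) ?_
  rintro ⟨a, b⟩ ⟨c, d⟩ e
  have e1 : a.1 - c.1 = d.1 - b.1 := by
    have e' : a.1 + b.1 = c.1 + d.1 := e
    rw [sub_eq_sub_iff_add_eq_add, e', add_comm]
  have h1 : a.1 - c.1 ∈ A ⊓ B := ⟨A.sub_mem a.2 c.2, e1 ▸ B.sub_mem d.2 b.2⟩
  rw [h, Submodule.mem_bot] at h1
  rw [h1] at e1
  exact Prod.ext (Subtype.ext (sub_eq_zero.1 h1)) (Subtype.ext (sub_eq_zero.1 e1.symm).symm)

theorem finrank_ker_pow_le {K W : Type*} [Field K] [AddCommGroup W] [Module K W]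
    [Module.Finite K W] (f : Module.End K W) (n : ℕ) :
    Module.finrank K (LinearMap.ker (f ^ n)) ≤ n * Module.finrank K (LinearMap.ker f) := by
  induction n with
  | zero => simp [Module.End.one_eq_id]
  | succ n ih =>
    have h1 := (f.domRestrict (LinearMap.ker (f ^ (n + 1)))).finrank_range_add_finrank_ker
    have h2 : LinearMap.range (f.domRestrict (LinearMap.ker (f ^ (n + 1)))) ≤
        LinearMap.ker (f ^ n) := by
      rintro _ ⟨⟨x, hx⟩, rfl⟩
      have := hx
      rw [LinearMap.mem_ker, pow_succ] at this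
      exact this
    have h3 := Submodule.finrank_mono h2
    have h4 : Module.finrank K (LinearMap.ker (f.domRestrict (LinearMap.ker (f ^ (n + 1))))) ≤
        Module.finrank K (LinearMap.ker f) := by
      rw [← Submodule.finrank_map_subtype_eq]
      refine Submodule.finrank_mono ?_
      rintro _ ⟨x, hx, rfl⟩
      exact hx
    rw [Nat.succ_mul]
    omega

theorem sub_one_pow_char [hp : Fact p.Prime] [Nontrivial V] (ρ : Representation (ZMod p) H V)
    (g : H) : (ρ g - 1) ^ p = ρ (g ^ p) - 1 := by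
  have : CharP (Module.End (ZMod p) V) p := charP_of_injective_algebraMap
    (algebraMap (ZMod p) (Module.End (ZMod p) V)).injective p
  rw [sub_pow_char_of_commute _ (Commute.one_right _), one_pow, map_pow]

end count

theorem jobCount : JobCount.{u, v} := by
  intro p hp H _ _ V _ _ _ _ ρ h U w hw
  have hw' : w = Nat.card (fixS ρ (U : Subgroup H)) := hw
  have hV := Module.natCard_eq_pow_finrank (K := ZMod p) (V := V)
  have hW := Module.natCard_eq_pow_finrank (K := ZMod p) (V := fixS ρ (U : Subgroup H))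
  rw [Nat.card_zmod] at hV hW
  have hc := h.card_sub_one U
  rw [← hw'] at hc hW
  refine ⟨⟨_, _, Nat.pos_of_ne_zero fun h0 => ?_, hW, hV⟩, hc, fun hn => ?_, ?_, ?_, fun hU => ?_⟩
  · rw [h0, pow_zero] at hW
    rw [hW, Nat.sub_self, mul_zero] at hc
    have := Finite.one_lt_card (α := V)
    omega
  · have : Nontrivial (Sylow p H) := by
      rw [← Finite.one_lt_card_iff_nontrivial]
      have : 0 < Nat.card (Sylow p H) := Nat.card_pos
      omega
    obtain ⟨Q, hQ⟩ := exists_ne U
    have h1 := card_mul_le_of_inf (h.fixS_inf hQ)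
    rwa [card_fixS_eq Q U, ← hw', ← pow_two] at h1
  · let _ := nzAct ρ
    rw [← card_nz]
    refine dvd_card_of_dvd_index (A := H) fun x => ?_
    obtain ⟨Q, hQ⟩ := h x.1 x.2
    have h1 : MulAction.stabilizer H x = Q := by
      ext g
      rw [MulAction.mem_stabilizer_iff, ← hQ, Subtype.ext_iff]
      rfl
    rw [h1, sylow_index_eq U Q]
  · set N := Subgroup.normalizer ((U : Subgroup H) : Set H)
    let _ : MulAction N {v : {v : V // v ≠ 0} // v.1 ∈ fixS ρ (U : Subgroup H)} :=
      { smul := fun n v => ⟨⟨ρ n v.1.1, rho_ne_zero ρ _ v.1.2⟩, by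
          have h1 := mem_fixS_smul U n.1 v.2
          rwa [Sylow.smul_eq_iff_mem_normalizer.2 n.2] at h1⟩
        one_smul := fun v => Subtype.ext (Subtype.ext (by
          change ρ 1 v.1.1 = v.1.1; rw [map_one]; rfl))
        mul_smul := fun a b v => Subtype.ext (Subtype.ext (rho_mul ρ a b v.1.1)) }
    rw [hw', ← card_nz_sub]
    refine dvd_card_of_dvd_index (A := N) fun x => ?_
    have h1 : MulAction.stabilizer N x = (U : Subgroup H).subgroupOf N := by
      ext g
      rw [MulAction.mem_stabilizer_iff, Subgroup.mem_subgroupOf, ← h.stab_eq U x.1.2 x.2,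
        Subtype.ext_iff, Subtype.ext_iff]
      rfl
    rw [h1]
    rfl
  · have hcyc : IsCyclic (U : Subgroup H) := isCyclic_of_prime_card hU
    obtain ⟨g, hg⟩ := hcyc.exists_generator
    have h1 : (g : H) ^ p = 1 := by
      have := pow_card_eq_one' (x := g)
      rw [hU] at this
      exact congrArg Subtype.val this
    have h2 : LinearMap.ker (ρ g - 1) = fixS ρ (U : Subgroup H) := by
      ext v
      rw [LinearMap.mem_ker, LinearMap.sub_apply, sub_eq_zero, mem_fixS]
      refine ⟨fun hv s hs => ?_, fun hv => hv g g.2⟩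
      obtain ⟨k, hk⟩ := (Submonoid.mem_powers_iff _ _).1
        ((mem_powers_iff_mem_zpowers).2 (hg ⟨s, hs⟩))
      have hs' : s = (g : H) ^ k := (congrArg Subtype.val hk).symm
      rw [hs']
      clear hk hs'
      induction k with
      | zero => rw [pow_zero, map_one]; rfl
      | succ k ih => rw [pow_succ, rho_mul]; exact (congrArg _ hv).trans ih
    have h3 := finrank_ker_pow_le (ρ g - 1) p
    rw [sub_one_pow_char, h1, map_one, sub_self, LinearMap.ker_zero, finrank_top, h2] at h3
    rw [hV, hW, ← pow_mul, mul_comm]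
    exact Nat.pow_le_pow_right hp.out.pos h3

end H97.Ga
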