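import Cfsg.Agent.H53.SimXASpec

/-! Tower SIM, chapter XA, item BC: blocks and conjugation. -/

set_option autoImplicit false

namespace H97.XABC

open Subgroup Cfsg H98 Matrix H0.Sim H53.XA

section
variable {n : ℕ} {F : Type} [Field F]

/-- conjugation of matrices -/
def cm (g : GL (Fin n) F) (m : Mt n F) : Mt n F :=
  (g : Mt n F) * m * ((g⁻¹ : GL (Fin n) F) : Mt n F)

theorem cm_mul (g : GL (Fin n) F) (a b : Mt n F) : cm g a * cm g b = cm g (a * b) := by
  simp only [cm, mul_assoc, Units.inv_mul_cancel_left]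

theorem cm_inv (g : GL (Fin n) F) (a : Mt n F) : cm g⁻¹ (cm g a) = a := by
  simp only [cm, inv_inv, mul_assoc, Units.inv_mul_cancel_left, Units.inv_mul, mul_one]

theorem cm_inv' (g : GL (Fin n) F) (a : Mt n F) : cm g (cm g⁻¹ a) = a := by
  simpa only [inv_inv] using cm_inv g⁻¹ a

theorem cm_zero (g : GL (Fin n) F) : cm g 0 = 0 := by simp only [cm, mul_zero, zero_mul]

theorem cm_one_sub (g : GL (Fin n) F) (a : Mt n F) : cm g (1 - a) = 1 - cm g a := by
  simp only [cm, mul_sub, sub_mul, mul_one, Units.mul_inv]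

theorem cm_coe (g h : GL (Fin n) F) :
    cm g (h : Mt n F) = ((g * h * g⁻¹ : GL (Fin n) F) : Mt n F) := by
  simp only [cm, Units.val_mul]

theorem cm_sp (g : GL (Fin n) F) (E : Subgroup (GL (Fin n) F)) {m : Mt n F} (hm : m ∈ Sp E) :
    cm g m ∈ Sp (cj g E) := by
  induction hm using Submodule.span_induction with
  | mem x hx =>
    obtain ⟨e, he, rfl⟩ := hx
    refine Submodule.subset_span ⟨g * e * g⁻¹, mem_cj.2 ?_, (cm_coe g e).symm⟩
    simpa only [mul_assoc, inv_mul_cancel_left, inv_mul_cancel, mul_one] using he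
  | zero => rw [cm_zero]; exact Submodule.zero_mem _
  | add x y _ _ hx hy =>
    have : cm g (x + y) = cm g x + cm g y := by simp only [cm, mul_add, add_mul]
    rw [this]; exact Submodule.add_mem _ hx hy
  | smul c x _ hx =>
    have : cm g (c • x) = c • cm g x := by simp only [cm, Matrix.mul_smul, Matrix.smul_mul]
    rw [this]; exact Submodule.smul_mem _ c hx

theorem cm_rank (g : GL (Fin n) F) (m : Mt n F) : (cm g m).rank = m.rank := by
  rw [cm, Matrix.rank_mul_eq_left_of_isUnit_det _ _ (Matrix.isUnits_det_units _),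
    Matrix.rank_mul_eq_right_of_isUnit_det _ _ (Matrix.isUnits_det_units _)]

variable [Fintype F] {u : Bool} {q : ℕ}

theorem cm_ip (hF : Fq F u q) {g : GL (Fin n) F} (hg : g ∈ Gam n F u q) {f : Mt n F}
    (hf : Ip u q f) : Ip u q (cm g f) := by
  refine ⟨by rw [cm_mul, hf.sq], ?_⟩
  rintro rfl
  have hF' : Fintype.card F = q ^ 2 := hF
  have h1 := (mem_gu hF').1 hg
  have h2 := (mem_gu hF').1 (inv_mem hg)
  have e1 : ad q (g : Mt n F) = ((g⁻¹ : GL (Fin n) F) : Mt n F) := by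
    rw [← mul_one (ad q (g : Mt n F)), ← Units.mul_inv g, ← mul_assoc, h1, one_mul]
  have e2 : ad q ((g⁻¹ : GL (Fin n) F) : Mt n F) = g := by
    rw [← mul_one (ad q ((g⁻¹ : GL (Fin n) F) : Mt n F)), ← Units.inv_mul g, ← mul_assoc, h2,
      one_mul]
  rw [cm, ad_mul hF', ad_mul hF', e1, e2, hf.fx rfl, mul_assoc]

theorem cm_bl (hF : Fq F u q) {g : GL (Fin n) F} (hg : g ∈ Gam n F u q)
    {E : Subgroup (GL (Fin n) F)} {f : Mt n F} (hf : f ∈ Bl u q E) : cm g f ∈ Bl u q (cj g E) := by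
  obtain ⟨h1, h2, h3, h4⟩ := hf
  refine ⟨cm_sp g E h1, cm_ip hF hg h2, fun e => h3 ?_, fun e he hi hm => ?_⟩
  · rw [← cm_inv g f, e, cm_zero]
  · have k1 := cm_sp g⁻¹ _ he
    rw [cj_inv_cj] at k1
    have k2 : cm g⁻¹ e * f = cm g⁻¹ e := by
      conv_lhs => rw [← cm_inv g f, cm_mul, hm]
    rcases h4 _ k1 (cm_ip hF (inv_mem hg) hi) k2 with k | k
    · exact Or.inl (by rw [← cm_inv' g e, k, cm_zero])
    · exact Or.inr (by rw [← k, cm_inv'])

end

theorem job : BC := by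
  intro n F _ _ u q E g hF hg
  refine ⟨fun f' hf' => ⟨cm g⁻¹ f', ?_, (cm_inv' g f').symm, (cm_rank g⁻¹ f').symm⟩, ?_⟩
  · have := cm_bl hF (inv_mem hg) hf'
    rwa [cj_inv_cj] at this
  · rintro f h ⟨⟨h1, h2⟩, -, h3, h4⟩
    have hm : g⁻¹ * h * g ∈ Gam n F u q := mul_mem (mul_mem (inv_mem hg) h1) hg
    have e : ((g⁻¹ * h * g : GL (Fin n) F) : Mt n F) = cm g⁻¹ h := by rw [cm_coe, inv_inv]
    have e1 : 1 - f = cm g⁻¹ (1 - cm g f) := by rw [cm_one_sub, cm_inv]
    refine ⟨⟨hm, ?_⟩, hm, ?_, ?_⟩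
    · have h2' : Matrix.GeneralLinearGroup.det h = 1 := h2
      change Matrix.GeneralLinearGroup.det (g⁻¹ * h * g) = 1
      rw [map_mul, map_mul, h2', mul_one, map_inv, inv_mul_cancel]
    · rw [e, e1, cm_mul]; exact congrArg _ h3
    · rw [e, e1, cm_mul]; exact congrArg _ h4

end H97.XABC
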