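import Cfsg.Agent.H58.SOSpec
import Cfsg.Agent.H59.AutMat
import Cfsg.Agent.S0283
import Cfsg.Agent.S0277

/-! Tower SIM, chapter OUT, item GU: `PGU_n(q)` has a component apart from `PGU_3(2)`. -/

set_option autoImplicit false

namespace H97.SOGU

open Subgroup Cfsg H98 Matrix H0.Sim H58.SO

/-- a permutation matrix, as an element of `GU` -/
def pm {n : ℕ} (F : Type) [Field F] (q : ℕ) (σ : Equiv.Perm (Fin n)) : GU n F q :=
  ⟨⟨σ.permMatrix F, (σ⁻¹).permMatrix F,
      by rw [← Matrix.permMatrix_mul]; simp, by rw [← Matrix.permMatrix_mul]; simp⟩,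
    fun u v => by
      change hermForm n F q (σ.permMatrix F *ᵥ u) (σ.permMatrix F *ᵥ v) = hermForm n F q u v
      rw [Matrix.permMatrix_mulVec, Matrix.permMatrix_mulVec]
      exact Equiv.sum_comp σ fun i => u i * v i ^ q⟩

theorem pm_coe {n : ℕ} (F : Type) [Field F] (q : ℕ) (σ : Equiv.Perm (Fin n)) :
    (((pm F q σ : GU n F q) : GL (Fin n) F) : Matrix (Fin n) (Fin n) F) = σ.permMatrix F := rfl

theorem jobGU : JobGU := by
  intro n F _ _ q hF hn
  by_cases h : n = 3 ∧ q = 2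
  · obtain ⟨rfl, rfl⟩ := h
    refine Or.inr ⟨rfl, rfl, ?_, fun hc => ?_⟩
    · have h1 := Cfsg.Agent.S0277.result hF 3
      have h2 : Nat.card (GU 3 F 2) = 648 := by
        rw [h1]; decide
      rw [← h2]
      exact card_quotient_dvd_card _
    · have h3 := hc (QuotientGroup.mk (pm F 2 (Equiv.swap 0 1)))
        (QuotientGroup.mk (pm F 2 (Equiv.swap 1 2)))
      rw [← QuotientGroup.mk_mul, ← QuotientGroup.mk_mul, QuotientGroup.eq] at h3
      obtain ⟨c, hc'⟩ := (Geo.mem_scalars_iff _).1 (mem_subgroupOf.1 h3)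
      have h4 : (((pm F 2 (Equiv.swap 1 2) * pm F 2 (Equiv.swap 0 1) : GU 3 F 2) : GL (Fin 3) F) :
          Matrix (Fin 3) (Fin 3) F) = (((pm F 2 (Equiv.swap 0 1) * pm F 2 (Equiv.swap 1 2) :
            GU 3 F 2) : GL (Fin 3) F) : Matrix (Fin 3) (Fin 3) F) * ((c : F) • 1) := by
        rw [← hc', ← Units.val_mul, ← Subgroup.coe_mul, mul_inv_cancel_left]
      rw [Subgroup.coe_mul, Subgroup.coe_mul, Units.val_mul, Units.val_mul, pm_coe, pm_coe,
        ← Matrix.permMatrix_mul, ← Matrix.permMatrix_mul] at h4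
      have e1 : (Equiv.swap (0 : Fin 3) 1 * Equiv.swap 1 2 : Equiv.Perm (Fin 3)) 0 = 1 := by decide
      have e2 : (Equiv.swap (1 : Fin 3) 2 * Equiv.swap 0 1 : Equiv.Perm (Fin 3)) 0 = 2 := by decide
      generalize (Equiv.swap (0 : Fin 3) 1 * Equiv.swap 1 2 : Equiv.Perm (Fin 3)) = σ at h4 e1
      generalize (Equiv.swap (1 : Fin 3) 2 * Equiv.swap 0 1 : Equiv.Perm (Fin 3)) = τ at h4 e2
      have h5 := congrFun (congrFun h4 0) 1
      simp [Equiv.Perm.permMatrix, PEquiv.toMatrix_apply, e1, e2] at h5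
  · refine Or.inl (hc_proj (GU n F q) (H59.suToGU n F q) H59.suToGU_injective ?_
      (hc_simple (Cfsg.Agent.S0283.result hF n hn h)))
    constructor
    rintro _ ⟨s, rfl⟩ g
    exact ⟨_, H59.suToGU_suDiag g s⟩

end H97.SOGU
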