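import Cfsg.Agent.H91.AHSpec

/-! Jobs LAM and V5 of the AH tower (S4162). -/

set_option autoImplicit false
set_option linter.unusedSectionVars false

namespace H97.AH

open H33.Solv Subgroup MulAction H91.AH

section

variable {p : ℕ} {H V : Type} [Group H] [AddCommGroup V] [Module (ZMod p) V] [DistribMulAction H V]

/-- An eigenspace. -/
def Eg (V : Type) [AddCommGroup V] [Module (ZMod p) V] [DistribMulAction H V] (z : H) (μ : ZMod p) :
    Submodule (ZMod p) V where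
  carrier := {u | z • u = μ • u}
  zero_mem' := (smul_zero z).trans (smul_zero μ).symm
  add_mem' := fun {a b} ha hb => by
    change z • (a + b) = μ • (a + b)
    rw [smul_add, smul_add, show z • a = μ • a from ha, show z • b = μ • b from hb]
  smul_mem' := fun a u hu => by
    change z • a • u = μ • a • u
    rw [smul_sc, show z • u = μ • u from hu, smul_comm]

/-- The twisted action on an eigenspace. -/
@[reducible] def twAct (R : Subgroup H) (z : H) (μ : ZMod p) (hz : ∀ c ∈ R, Commute c z)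
    (ψ : R → ZMod p) (h1 : ψ 1 = 1) (hm : ∀ a b, ψ (a * b) = ψ a * ψ b) :
    DistribMulAction R (Eg V z μ) where
  smul c u := ⟨ψ c • (c : H) • (u : V), (Eg V z μ).smul_mem _ (by
    change z • (c : H) • (u : V) = μ • (c : H) • (u : V)
    rw [← mul_smul, ← (hz c c.2).eq, mul_smul, show z • (u : V) = μ • (u : V) from u.2, smul_sc])⟩
  one_smul u := Subtype.ext (by
    change ψ 1 • (1 : H) • (u : V) = u
    rw [h1, one_smul, one_smul])
  mul_smul a b u := Subtype.ext (by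
    change ψ (a * b) • ((a : H) * b) • (u : V) = ψ a • (a : H) • ψ b • (b : H) • (u : V)
    rw [hm, mul_smul, mul_smul, smul_sc])
  smul_zero c := Subtype.ext (by
    change ψ c • (c : H) • (0 : V) = 0
    rw [smul_zero, smul_zero])
  smul_add c a b := Subtype.ext (by
    change ψ c • (c : H) • ((a : V) + b) = ψ c • (c : H) • (a : V) + ψ c • (c : H) • (b : V)
    rw [smul_add, smul_add])

theorem card_tw (R : Subgroup H) (z : H) (μ : ZMod p) (hz : ∀ c ∈ R, Commute c z)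
    (ψ : R → ZMod p) (h1 : ψ 1 = 1) (hm : ∀ a b, ψ (a * b) = ψ a * ψ b) (c : R) :
    Nat.card (@fix R _ (Eg V z μ) _ (twAct R z μ hz ψ h1 hm) c) =
      Nat.card {u : V // z • u = μ • u ∧ ψ c • (c : H) • u = u} :=
  Nat.card_congr
    { toFun := fun u => ⟨u.1.1, u.1.2, congrArg Subtype.val u.2⟩
      invFun := fun u => ⟨⟨u.1, u.2.1⟩, Subtype.ext u.2.2⟩
      left_inv := fun _ => rfl
      right_inv := fun _ => rfl }

theorem cop_Eg [hp : Fact p.Prime] [Finite V] {r : ℕ} (hr : r.Prime) (h : r ≠ p) (z : H)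
    (μ : ZMod p) : r.Coprime (Nat.card (Eg V z μ)) := by
  obtain ⟨n, hn⟩ := card_pow (p := p) (Eg V z μ).toAddSubgroup
  rw [show Nat.card (Eg V z μ) = p ^ n from hn]
  exact ((Nat.coprime_primes hr hp.out).2 h).pow_right n

end

theorem jobLAM : JobLAM := by
  intro hTW p _ H V _ _ _ _ _ _ r R z χ μ v hr hrp hR hz ht hv hχ hμ
  have inj := smul_left_injective (ZMod p) hv
  have h1 : χ 1 = 1 := inj ((hχ 1 R.one_mem).symm.trans ((one_smul _ v).trans (one_smul _ v).symm))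
  have hm : ∀ a b : R, χ ((a * b : R) : H) = χ a * χ b := fun a b => inj (by
    change χ ((a : H) * b) • v = (χ a * χ b) • v
    rw [← hχ _ (mul_mem a.2 b.2), mul_smul, hχ _ b.2, smul_sc, hχ _ a.2, smul_smul, mul_comm])
  have h0 : ∀ c ∈ R, χ c ≠ 0 := fun c hc e => hv (by
    have := hχ c hc
    rwa [e, zero_smul, smul_eq_zero_iff_eq] at this)
  have hz' : ∀ c ∈ R, Commute c z⁻¹ := fun c hc => (hz c hc).inv_right
  have h1' : (χ ((1 : R) : H))⁻¹ = 1 := (congrArg _ h1).trans inv_one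
  have hm' : ∀ a b : R, (χ ((a * b : R) : H))⁻¹ = (χ a)⁻¹ * (χ b)⁻¹ := fun a b => by
    rw [hm, mul_inv]
  let i1 := twAct (V := V) R z μ hz (fun c => (χ c)⁻¹) h1' hm'
  let i2 := twAct (V := V) R z⁻¹ μ hz' (fun c => χ c) h1 hm
  have key := hTW r R (Eg V z μ) (Eg V z⁻¹ μ) hr hR (cop_Eg hr hrp _ _) (cop_Eg hr hrp _ _) fun c => by
    refine (card_tw R z μ hz _ h1' hm' c).trans (Eq.trans ?_ (card_tw R z⁻¹ μ hz' _ h1 hm c).symm)
    obtain ⟨t, e1, e2⟩ := ht c c.2
    refine Nat.card_congr ((toPerm t).subtypeEquiv fun u => and_congr ?_ ?_)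
    · change _ ↔ z⁻¹ • t • u = μ • t • u
      rw [← e2, mul_smul, mul_smul, inv_smul_smul, ← smul_sc, smul_left_cancel_iff]
    · refine Iff.trans ?_ (?_ : χ c • u = (c : H) • u ↔ χ c • (c : H) • t • u = t • u)
      · rw [inv_smul_eq_iff₀ (h0 c c.2), eq_comm]
      · rw [← smul_sc, smul_eq_iff_eq_inv_smul (c : H), ← e1, mul_smul, mul_smul, inv_smul_smul,
          ← smul_sc, smul_left_cancel_iff]
  have : Nontrivial (fixedPoints R (Eg V z μ)) :=
    ⟨⟨⟨⟨v, hμ⟩, fun c => Subtype.ext (by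
      change (χ c)⁻¹ • (c : H) • v = v
      rw [hχ _ c.2, inv_smul_smul₀ (h0 c c.2)])⟩, ⟨0, fun c => smul_zero c⟩,
      fun e => hv (congrArg (fun u => u.1.1) e)⟩⟩
  have h2 : 1 < Nat.card (fixedPoints R (Eg V z μ)) := Finite.one_lt_card
  rw [key, Finite.one_lt_card_iff_nontrivial] at h2
  obtain ⟨w, hw⟩ := exists_ne (⟨0, fun c => smul_zero c⟩ : fixedPoints R (Eg V z⁻¹ μ))
  refine ⟨w.1.1, fun e => hw (Subtype.ext (Subtype.ext e)), fun c hc => ?_, w.1.2⟩
  have h3 : χ c • c • w.1.1 = w.1.1 := congrArg Subtype.val (w.2 ⟨c, hc⟩)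
  rw [inv_smul_eq_iff, smul_sc, h3]

theorem z5 : (2 : ZMod 5) ≠ 0 ∧ (2 : ZMod 5) ^ 2 ^ 2 = 1 ∧ ∀ a : ZMod 5, a = 2 * a * 2 → a = 0 := by
  decide

theorem jobV5 : JobV5 := by
  intro hL p _ H V _ _ _ _ _ _ hR h5 h hh hc
  subst h5
  obtain ⟨⟨v, hv⟩, hv0⟩ : ∃ v : fix V h, v ≠ 0 := by
    have : Nontrivial (fix V h) := Finite.one_lt_card_iff_nontrivial.1 (by omega)
    exact exists_ne 0
  have v0 : v ≠ 0 := fun e => hv0 (Subtype.ext e)
  have span : ∀ w, h • w = w → ∃ a : ZMod 5, w = a • v := fun w hw => by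
    obtain ⟨n, hn⟩ := mem_zmultiples_of_prime_card (p := 5) hc hv0 (g' := ⟨w, hw⟩)
    exact ⟨n, by rw [Int.cast_smul_eq_zsmul]; exact (congrArg Subtype.val hn).symm⟩
  obtain ⟨g0, e0, c0⟩ := hR.ep (mem_fix.1 hv) (a := 2) z5.1
  obtain ⟨m, j, hm, hj⟩ := exists_part Nat.prime_two g0 2
  have e1 : g0 ^ m • v = (2 : ZMod 5) • v := by
    rw [pow_smul_eig e0, pow_eq_pow_mod m (show (2 : ZMod 5) ^ 2 ^ 2 = 1 from z5.2.1), hm]
    rfl
  have c1 : Commute (g0 ^ m) h := c0.pow_left m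
  generalize g0 ^ m = g at e1 c1 hj
  have key : ∀ (R : Subgroup H) (z : H), IsPGroup 2 R → g ∈ R → (∀ c ∈ R, Commute c h) →
      (∀ c ∈ R, Commute c z) → Odd (orderOf z) → z • v = v → (h ∈ R ∨ h = z) → False := by
    intro R z h2 hg hch hcz ho hzv hor
    have ex : ∀ c : H, ∃ a : ZMod 5, c ∈ R → c • v = a • v := fun c => by
      by_cases k : c ∈ R
      · obtain ⟨a, ha⟩ := span (c • v) (by
          rw [← mul_smul, ← (hch c k).eq, mul_smul, mem_fix.1 hv])
        exact ⟨a, fun _ => ha⟩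
      · exact ⟨0, fun k' => absurd k' k⟩
    choose χ hχ using ex
    have inj := smul_left_injective (ZMod 5) v0
    obtain ⟨w, w0, h3, h4⟩ := hL 5 H V 2 R z χ 1 v Nat.prime_two (by decide) h2 hcz (fun c k => by
      obtain ⟨n, hn⟩ := (IsPGroup.iff_orderOf.1 h2) ⟨c, k⟩
      refine hR.ratH.inv_inv (hcz c k) ?_
      rw [← orderOf_coe] at hn
      rw [hn]
      exact (Nat.coprime_two_left.2 ho).pow_left n) v0 hχ (by rw [hzv, one_smul])
    have h5 : h • w = w := by
      rw [smul_eq_iff_eq_inv_smul]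
      rcases hor with k | rfl
      · rw [h3 h k, inj ((hχ h k).symm.trans ((mem_fix.1 hv).trans (one_smul _ v).symm)), one_smul]
      · rw [h4, one_smul]
    obtain ⟨a, rfl⟩ := span w h5
    have h6 := h3 g hg
    rw [inj ((hχ g hg).symm.trans e1), inv_smul_eq_iff, smul_sc, smul_sc, e1, smul_smul,
      smul_smul] at h6
    have h7 : a = 2 * a * 2 := inj h6
    exact w0 (by rw [z5.2.2 a h7, zero_smul])
  have zp : ∀ {x : H} {k : ℕ}, x ^ 2 ^ k = 1 → IsPGroup 2 (zpowers x) := fun {x k} e y => by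
    obtain ⟨_, n, rfl⟩ := y
    exact ⟨k, Subtype.ext (by
      change (x ^ n) ^ 2 ^ k = 1
      rw [← zpow_natCast, ← zpow_mul, mul_comm, zpow_mul, zpow_natCast, e, one_zpow])⟩
  have cz : ∀ c ∈ zpowers g, Commute c h := by
    rintro _ ⟨n, rfl⟩
    exact c1.zpow_left n
  by_cases h2 : h ^ 2 ^ 1 = 1
  · refine key (zpowers g ⊔ zpowers h) 1 ((zp hj).to_sup_of_normal_right' (zp h2) ?_)
      (mem_sup_left (mem_zpowers g)) ?_ (fun c _ => Commute.one_right c) (by simp) (one_smul _ v)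
      (Or.inl (mem_sup_right (mem_zpowers h)))
    · refine le_trans ?_ (centralizer_le_normalizer _)
      rintro c hc _ ⟨n, rfl⟩
      exact ((cz c hc).zpow_right n).symm
    · refine fun c hc => mem_cent.1 ((sup_le (fun x hx => mem_cent.2 (cz x hx)) ?_ :
        _ ≤ centralizer {h}) hc)
      exact zpowers_le.2 (mem_cent.2 (Commute.refl h))
  · refine key (zpowers g) h (zp hj) (mem_zpowers g) cz cz ?_ (mem_fix.1 hv) (Or.inr rfl)
    rcases hh with rfl | hh
    · exact absurd (one_pow _) h2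
    · exact hh.odd_of_ne_two fun e => h2 (by rw [pow_one, ← e, pow_orderOf_eq_one])

end H97.AH
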