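import Cfsg.Agent.H48.DP1Spec

/-! S3275, chapter (1): the derived facts on the model of `U₃(3)` (slot `UM`). -/

set_option autoImplicit false
set_option linter.unusedSectionVars false

namespace H97.DPU

open Subgroup Cfsg H98 H48.DP

universe u

variable {G : Type*} [Group G] {L : Subgroup G} {a b s x y : G}

theorem syl_of_card [Finite G] {p k : ℕ} [hp : Fact p.Prime] {T H : Subgroup G} (h : T ≤ H)
    (h1 : Nat.card T = p ^ k) (h2 : ¬ p ^ (k + 1) ∣ Nat.card H) : IsSyl p T H := by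
  refine ⟨h, IsPGroup.of_card h1, fun Q hQ h3 h4 => ?_⟩
  obtain ⟨m, hm⟩ := hQ.exists_card_eq
  refine (eq_of_le_of_card_ge h3 ?_).symm
  rw [hm, h1]
  refine Nat.pow_le_pow_right hp.out.pos ?_
  by_contra h5
  exact h2 ((pow_dvd_pow p (by omega)).trans (hm ▸ card_dvd_of_le h4))

theorem mC {c g : G} : g ∈ C1 c ↔ c * g = g * c := mem_centralizer_singleton_iff.trans eq_comm

theorem zpow_eq4 {c : G} (h : c ^ 4 = 1) {i j : ℤ} (e : 4 ∣ i - j) : c ^ i = c ^ j := by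
  obtain ⟨k, hk⟩ := e
  rw [show i = j + 4 * k by omega, zpow_add, zpow_mul, show c ^ (4 : ℤ) = 1 from by
    exact_mod_cast h, one_zpow, mul_one]

section

variable (h : UM0 L a b s x y)
include h

theorem pw_mul (i j k l : ℤ) : a ^ i * b ^ j * (a ^ k * b ^ l) = a ^ (i + k) * b ^ (j + l) := by
  have : b ^ j * a ^ k = a ^ k * b ^ j := ((show Commute a b from h.ab).zpow_zpow k j).symm
  rw [zpow_add, zpow_add, mul_assoc, ← mul_assoc (b ^ j), this]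
  simp only [mul_assoc]

theorem pw_inv (i j : ℤ) : (a ^ i * b ^ j)⁻¹ = a ^ (-i) * b ^ (-j) := by
  rw [inv_eq_iff_mul_eq_one, pw_mul h]; simp

theorem pw_eq {i j k l : ℤ} : a ^ i * b ^ j = a ^ k * b ^ l ↔ 4 ∣ i - k ∧ 4 ∣ j - l := by
  refine ⟨fun e => h.ind _ _ ?_, fun e => by rw [zpow_eq4 h.a4 e.1, zpow_eq4 h.b4 e.2]⟩
  rw [sub_eq_add_neg, sub_eq_add_neg, ← pw_mul h, ← pw_inv h, e, mul_inv_cancel]

theorem s_inv : s⁻¹ = s := inv_eq_of_mul_eq_one_right h.s2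

theorem sb : s * b * s⁻¹ = a := by
  rw [← h.sa, s_inv h]
  calc s * (s * a * s) * s = s * s * a * (s * s) := by group
    _ = a := by rw [h.s2]; simp

theorem s_pw (i j : ℤ) : s * (a ^ i * b ^ j) * s⁻¹ = a ^ j * b ^ i := by
  calc _ = (s * a * s⁻¹) ^ i * (s * b * s⁻¹) ^ j := by simp only [conj_zpow]; group
    _ = _ := by rw [h.sa, sb h, ((show Commute a b from h.ab).zpow_zpow j i).eq]

theorem s_mul (i j : ℤ) : s * (a ^ i * b ^ j) = a ^ j * b ^ i * s := by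
  rw [← s_pw h i j]; group

theorem mem_H {g : G} : g ∈ closure ({a, b} : Set G) ↔ ∃ i j : ℤ, g = a ^ i * b ^ j := by
  refine ⟨fun hg => ?_, ?_⟩
  · induction hg using closure_induction with
    | mem c hc =>
      rcases hc with rfl | rfl
      exacts [⟨1, 0, by simp⟩, ⟨0, 1, by simp⟩]
    | one => exact ⟨0, 0, by simp⟩
    | mul c d _ _ hc hd =>
      obtain ⟨i, j, rfl⟩ := hc
      obtain ⟨k, l, rfl⟩ := hd
      exact ⟨_, _, pw_mul h ..⟩
    | inv c _ hc =>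
      obtain ⟨i, j, rfl⟩ := hc
      exact ⟨_, _, pw_inv h ..⟩
  · rintro ⟨i, j, rfl⟩
    exact mul_mem (zpow_mem (subset_closure (by simp)) i) (zpow_mem (subset_closure (by simp)) j)

theorem pw_ne (i j k l : ℤ) : a ^ i * b ^ j ≠ a ^ k * b ^ l * s := fun e => by
  have h1 : s = a ^ (-k + i) * b ^ (-l + j) := by rw [← pw_mul h, ← pw_inv h, e]; group
  have h2 := s_mul h 1 0
  rw [h1, pw_mul h, pw_mul h, pw_eq h] at h2
  omega

theorem mem_W {g : G} : g ∈ closure ({a, b, s} : Set G) ↔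
    ∃ i j : ℤ, g = a ^ i * b ^ j ∨ g = a ^ i * b ^ j * s := by
  refine ⟨fun hg => ?_, ?_⟩
  · induction hg using closure_induction with
    | mem c hc =>
      rcases hc with rfl | rfl | rfl
      exacts [⟨1, 0, by simp⟩, ⟨0, 1, by simp⟩, ⟨0, 0, by simp⟩]
    | one => exact ⟨0, 0, by simp⟩
    | mul c d _ _ hc hd =>
      obtain ⟨i, j, rfl | rfl⟩ := hc <;> obtain ⟨k, l, rfl | rfl⟩ := hd
      · exact ⟨_, _, .inl (pw_mul h ..)⟩
      · exact ⟨_, _, .inr (by rw [← mul_assoc, pw_mul h])⟩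
      · exact ⟨_, _, .inr (by rw [mul_assoc, s_mul h, ← mul_assoc, pw_mul h])⟩
      · exact ⟨_, _, .inl (by
          rw [mul_assoc, ← mul_assoc s, s_mul h, mul_assoc _ s, h.s2, mul_one, pw_mul h])⟩
    | inv c _ hc =>
      obtain ⟨i, j, rfl | rfl⟩ := hc
      · exact ⟨_, _, .inl (pw_inv h ..)⟩
      · exact ⟨_, _, .inr (by rw [mul_inv_rev, pw_inv h, s_inv h, s_mul h])⟩
  · have h1 : ∀ i j : ℤ, a ^ i * b ^ j ∈ closure ({a, b, s} : Set G) := fun i j =>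
      mul_mem (zpow_mem (subset_closure (by simp)) i) (zpow_mem (subset_closure (by simp)) j)
    rintro ⟨i, j, rfl | rfl⟩
    exacts [h1 i j, mul_mem (h1 i j) (subset_closure (by simp))]

theorem pw_mod (i j : ℤ) : ∃ k l : Fin 4, a ^ i * b ^ j = a ^ (k : ℤ) * b ^ (l : ℤ) :=
  ⟨⟨(i % 4).toNat, by omega⟩, ⟨(j % 4).toNat, by omega⟩, (pw_eq h).2 (by
    constructor <;> simp only [] <;> omega)⟩

theorem cH : Nat.card ↥(closure ({a, b} : Set G)) = 16 := by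
  rw [← Nat.card_eq_of_bijective (fun p : Fin 4 × Fin 4 =>
    (⟨a ^ (p.1 : ℤ) * b ^ (p.2 : ℤ), (mem_H h).2 ⟨_, _, rfl⟩⟩ : closure ({a, b} : Set G)))
    ⟨fun p q e => ?_, fun g => ?_⟩]
  · simp
  · have := (pw_eq h).1 (congrArg Subtype.val e)
    exact Prod.ext (by omega) (by omega)
  · obtain ⟨i, j, e⟩ := (mem_H h).1 g.2
    obtain ⟨k, l, e'⟩ := pw_mod h i j
    exact ⟨(k, l), Subtype.ext (e.trans e').symm⟩

theorem cW : Nat.card ↥(closure ({a, b, s} : Set G)) = 32 := by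
  rw [← Nat.card_eq_of_bijective (fun p : Fin 4 × Fin 4 ⊕ Fin 4 × Fin 4 => (p.elim
    (fun p => ⟨a ^ (p.1 : ℤ) * b ^ (p.2 : ℤ), (mem_W h).2 ⟨_, _, .inl rfl⟩⟩)
    (fun p => ⟨a ^ (p.1 : ℤ) * b ^ (p.2 : ℤ) * s, (mem_W h).2 ⟨_, _, .inr rfl⟩⟩) :
      closure ({a, b, s} : Set G))) ⟨?_, fun g => ?_⟩]
  · simp
  · rintro (p | p) (q | q) e <;> have e' := congrArg Subtype.val e
    · have := (pw_eq h).1 e'
      exact congrArg _ (Prod.ext (by omega) (by omega))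
    · exact absurd e' (pw_ne h _ _ _ _)
    · exact absurd e'.symm (pw_ne h _ _ _ _)
    · have := (pw_eq h).1 (mul_right_cancel e')
      exact congrArg _ (Prod.ext (by omega) (by omega))
  · obtain ⟨i, j, e⟩ := (mem_W h).1 g.2
    obtain ⟨k, l, e'⟩ := pw_mod h i j
    rcases e with e | e
    · exact ⟨.inl (k, l), Subtype.ext (e.trans e').symm⟩
    · exact ⟨.inr (k, l), Subtype.ext (e.trans (by rw [e']; rfl)).symm⟩

theorem z_eq : a ^ 2 * b ^ 2 = a ^ (2 : ℤ) * b ^ (2 : ℤ) := by norm_cast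

theorem W_le : closure ({a, b, s} : Set G) ≤ L ⊓ C1 (a ^ 2 * b ^ 2) := fun g hg => by
  have h1 : ∀ i j : ℤ, a ^ i * b ^ j ∈ L ⊓ C1 (a ^ 2 * b ^ 2) := fun i j =>
    ⟨mul_mem (zpow_mem h.aL i) (zpow_mem h.bL j), mC.2 (by
      rw [z_eq h, pw_mul h, pw_mul h, add_comm i, add_comm j])⟩
  obtain ⟨i, j, rfl | rfl⟩ := (mem_W h).1 hg
  exacts [h1 i j, mul_mem (h1 i j) ⟨h.sL, mC.2 (by rw [z_eq h, s_mul h])⟩]

theorem y_mem : y ∈ L ⊓ C1 (a ^ 2 * b ^ 2) := ⟨h.yL, mC.2 (by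
  rw [← (show Commute a b from h.ab).mul_pow]; exact (h.yc.pow_right 2).symm)⟩

theorem inv_H {g : G} (hg : g ∈ closure ({a, b} : Set G)) (h2 : g * g = 1) :
    g = 1 ∨ g = a ^ 2 ∨ g = b ^ 2 ∨ g = a ^ 2 * b ^ 2 := by
  obtain ⟨i, j, rfl⟩ := (mem_H h).1 hg
  rw [pw_mul h] at h2
  have h3 := h.ind _ _ h2
  have e1 : (1 : G) = a ^ (0 : ℤ) * b ^ (0 : ℤ) := by simp
  have e2 : a ^ 2 = a ^ (2 : ℤ) * b ^ (0 : ℤ) := by simp
  have e3 : b ^ 2 = a ^ (0 : ℤ) * b ^ (2 : ℤ) := by simp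
  rw [z_eq h, e1, e2, e3, pw_eq h, pw_eq h, pw_eq h, pw_eq h]
  omega

variable [Finite G]

theorem syl : IsSyl 2 (closure {a, b, s}) L :=
  syl_of_card (k := 5) ((W_le h).trans inf_le_left) (cW h) (by rw [h.card]; decide)

theorem two (l : G) (hl : l ∈ L) (h2 : orderOf l = 2) (hc : Commute l (a ^ 2 * b ^ 2))
    (hz : l ≠ a ^ 2 * b ^ 2) : ∃ g ∈ L, Commute g (a ^ 2 * b ^ 2) ∧ g * l * g⁻¹ = a ^ 2 := by
  have l2 : l ^ 2 = 1 := h2 ▸ pow_orderOf_eq_one l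
  obtain ⟨g, hg, h3⟩ := ((syl h).of_le (W_le h) inf_le_left).exists_cj_le
    (isPGroup_zpowers (k := 1) (x := l) l2) ((zpowers_le (G := G)).2 ⟨hl, mC.2 hc.symm⟩)
  have h4 := h3 (conj_mem_cj (mem_zpowers l))
  have h5 : g * l * g⁻¹ * (g * l * g⁻¹) = 1 := by rw [← sq, conj_pow, l2]; group
  suffices ∃ k ∈ L ⊓ C1 (a ^ 2 * b ^ 2), k * (g * l * g⁻¹) * k⁻¹ = a ^ 2 by
    obtain ⟨k, hk, e⟩ := this
    exact ⟨k * g, (mul_mem hk hg).1, (mC.1 (mul_mem hk hg).2).symm, by rw [← e]; group⟩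
  obtain ⟨i, j, e | e⟩ := (mem_W h).1 h4
  · rcases inv_H h ((mem_H h).2 ⟨i, j, e⟩) h5 with e | e | e | e
    · rw [conj_eq_one_iff] at e
      simp [e] at h2
    · exact ⟨1, one_mem _, by simp [e]⟩
    · exact ⟨s, W_le h (subset_closure (by simp)), by rw [e, ← conj_pow, sb h]⟩
    · refine absurd ?_ hz
      calc l = g⁻¹ * (g * l * g⁻¹) * g := by group
        _ = _ := by rw [e, mul_assoc, mC.1 hg.2]; group
  · rw [e, mul_assoc, ← mul_assoc s, s_mul h, mul_assoc _ s, h.s2, mul_one, pw_mul h] at h5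
    have h6 := h.ind _ _ h5
    have h7 : a ^ i * b ^ j * s = a ^ i * b ^ (0 : ℤ) * s * (a ^ i * b ^ (0 : ℤ))⁻¹ := by
      rw [pw_inv h, mul_assoc _ s, s_mul h, ← mul_assoc, pw_mul h,
        mul_left_inj, pw_eq h]
      omega
    refine ⟨y⁻¹ * (a ^ i * b ^ (0 : ℤ))⁻¹, mul_mem (inv_mem (y_mem h))
      (inv_mem (W_le h ((mem_W h).2 ⟨_, _, .inl rfl⟩))), ?_⟩
    rw [e, h7, ← h.y1]; group

theorem rk : PRankLE 2 2 L := by
  classical
  intro A hA h2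
  have key : ∀ E : Subgroup G, E ≤ L → (∀ u ∈ E, u * u = 1) → (∀ u ∈ E, ∀ v ∈ E, Commute u v) →
      Nat.card E ≤ 4 := by
    have k0 : ∀ E : Subgroup G, (∀ u ∈ E, u = 1 ∨ u = a ^ 2 ∨ u = b ^ 2 ∨ u = a ^ 2 * b ^ 2) →
        Nat.card E ≤ 4 := fun E hE => by
      refine le_trans (Set.ncard_le_ncard (s := (E : Set G))
        (t := ↑({1, a ^ 2, b ^ 2, a ^ 2 * b ^ 2} : Finset G)) fun u hu => by simpa using hE u hu) ?_
      rw [Set.ncard_coe_finset]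
      exact Finset.card_le_four
    have o2 : ∀ u : G, u * u = 1 → u ≠ 1 → orderOf u = 2 := fun u h1 h2 =>
      orderOf_eq_prime (by rw [sq, h1]) h2
    have k1 : ∀ (g : G) (E : Subgroup G), g ∈ L → E ≤ L → (∀ u ∈ E, u * u = 1) →
        (∀ u ∈ E, ∀ v ∈ E, Commute u v) → cj g E ≤ L ∧ (∀ u ∈ cj g E, u * u = 1) ∧
          ∀ u ∈ cj g E, ∀ v ∈ cj g E, Commute u v := fun g E hg h1 h2 h3 => by
      refine ⟨cj_le_of_le_of_mem h1 hg, ?_, ?_⟩
      · rintro _ ⟨u, hu, rfl⟩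
        rw [← map_mul, h2 u hu, map_one]
      · rintro _ ⟨u, hu, rfl⟩ _ ⟨v, hv, rfl⟩
        exact (h3 u hu v hv).map _
    intro E h1 h2 h3
    by_cases c1 : ∀ u ∈ E, u = 1
    · exact k0 E fun u hu => .inl (c1 u hu)
    push Not at c1
    obtain ⟨u, hu, u1⟩ := c1
    obtain ⟨g, hg, e⟩ := h.one u (h1 hu) (o2 u (h2 u hu) u1)
    obtain ⟨h4, h5, h6⟩ := k1 g E hg h1 h2 h3
    have hz : a ^ 2 * b ^ 2 ∈ cj g E := e ▸ conj_mem_cj hu
    rw [← card_cj g]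
    generalize cj g E = E' at h4 h5 h6 hz
    by_cases c2 : ∀ v ∈ E', v = 1 ∨ v = a ^ 2 * b ^ 2
    · exact k0 E' fun v hv => (c2 v hv).elim .inl fun e => .inr (.inr (.inr e))
    push Not at c2
    obtain ⟨v, hv, v1, vz⟩ := c2
    obtain ⟨k, hk, kz, e⟩ := two h v (h4 hv) (o2 v (h5 v hv) v1) (h6 v hv _ hz) vz
    obtain ⟨h7, h8, h9⟩ := k1 k E' hk h4 h5 h6
    have ha : a ^ 2 ∈ cj k E' := e ▸ conj_mem_cj hv
    have hb : b ^ 2 ∈ cj k E' := by
      have := conj_mem_cj (g := k) hz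
      rw [kz.eq, mul_inv_cancel_right] at this
      exact (mul_mem_cancel_left ha).1 this
    rw [← card_cj k]
    exact k0 _ fun w hw => inv_H h (h.cV w (h7 hw) (h9 w hw _ ha) (h9 w hw _ hb)) (h8 w hw)
  rw [← card_map_of_injective (f := L.subtype) L.subtype_injective]
  refine key _ (map_subtype_le A) ?_ ?_
  · rintro _ ⟨u, hu, rfl⟩
    rw [← map_mul, ← sq, h2 u hu, map_one]
  · rintro _ ⟨u, hu, rfl⟩ _ ⟨v, hv, rfl⟩
    exact Commute.map (setLike_mul_comm hu hv) _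

theorem cen : L ⊓ Ce L = ⊥ := by
  have := h.simple
  rw [← map_subtype_center]
  rcases (inferInstance : (center L).Normal).eq_bot_or_eq_top with e | e
  · rw [e, Subgroup.map_bot]
  · have h1 : (⟨s, h.sL⟩ : L) ∈ center L := e ▸ mem_top _
    have h2 : a * s = s * a := congrArg Subtype.val (mem_center_iff.1 h1 ⟨a, h.aL⟩)
    have h3 := s_pw h 1 0
    rw [zpow_one, zpow_zero, mul_one, ← h2, mul_inv_cancel_right] at h3
    have := (pw_eq h (i := 1) (j := 0) (k := 0) (l := 1)).1 (by simpa using h3)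
    omega

theorem card_y : Nat.card (zpowers y) = 3 := by
  rw [Nat.card_zpowers]
  refine orderOf_eq_prime h.y3 fun e => pw_ne h 2 0 0 0 ?_
  rw [← h.y1, e]; simp

/-- `C_W(y) ≤ ⟨a b⟩` -/
theorem cWy {w : G} (hw : w ∈ closure ({a, b, s} : Set G)) (hc : Commute w y) :
    w ∈ zpowers (a * b) := by
  have k : ∀ c d : G, w * c * w⁻¹ = d → w * (y * c * y⁻¹) * w⁻¹ = y * d * y⁻¹ := fun c d e => by
    rw [← e]
    calc _ = (w * y) * c * (w * y)⁻¹ := by group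
      _ = _ := by rw [hc.eq]; group
  have e2 : a ^ 2 = a ^ (2 : ℤ) * b ^ (0 : ℤ) := by simp
  obtain ⟨i, j, e | e⟩ := (mem_W h).1 hw
  · have h1 := k (a ^ 2) (a ^ 2) (by
      rw [e, e2, pw_mul h, pw_inv h, pw_mul h, pw_eq h]; omega)
    rw [h.y1, mul_inv_eq_iff_eq_mul, e, s_mul h, mul_left_inj, pw_eq h] at h1
    exact ⟨i, by
      rw [e, (pw_eq h (k := i) (l := i)).2 (by omega)]
      exact (show Commute a b from h.ab).mul_zpow i⟩
  · exfalso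
    have yz : y * (a ^ 2 * b ^ 2) * y⁻¹ = a ^ 2 * b ^ 2 := by rw [← mC.1 (y_mem h).2]; group
    have sz : a ^ 2 * b ^ 2 * s = s * (a ^ 2 * b ^ 2) := by rw [z_eq h, s_mul h]
    have k2 : ∀ c d : G, y * c * y⁻¹ = d → w * c * w⁻¹ = c * (a ^ 2 * b ^ 2) →
        w * d * w⁻¹ = d * (a ^ 2 * b ^ 2) := fun c d e1 e3 => by
      rw [← e1, k _ _ e3]
      nth_rw 2 [← yz]
      group
    have hs : ∀ m n : ℤ, w * (a ^ m * b ^ n) * w⁻¹ = a ^ n * b ^ m := fun m n => by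
      calc _ = a ^ i * b ^ j * (s * (a ^ m * b ^ n) * s⁻¹) * (a ^ i * b ^ j)⁻¹ := by rw [e]; group
        _ = _ := by rw [s_pw h, pw_mul h, pw_inv h, pw_mul h, pw_eq h]; omega
    have h1 : w * a ^ 2 * w⁻¹ = a ^ 2 * (a ^ 2 * b ^ 2) := by
      rw [z_eq h, e2, hs, pw_mul h, pw_eq h]; omega
    have h2 := k2 _ _ h.y1 h1
    have h3 := k2 _ _ h.y2 h2
    have h4 : s * a⁻¹ * b = s * (a ^ (-1 : ℤ) * b ^ (1 : ℤ)) := by simp [mul_assoc]
    have h5 : w * (s * (a ^ (-1 : ℤ) * b ^ (1 : ℤ))) * w⁻¹ =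
        w * s * w⁻¹ * (w * (a ^ (-1 : ℤ) * b ^ (1 : ℤ)) * w⁻¹) := by group
    rw [h4, h5, h2, hs, z_eq h, mul_assoc, mul_assoc s, mul_right_inj, pw_mul h, pw_mul h,
      pw_eq h] at h3
    omega

theorem dec {c : G} (hc : c ∈ L ⊓ C1 (a ^ 2 * b ^ 2)) :
    ∃ u ∈ zpowers y, ∃ w ∈ closure ({a, b, s} : Set G), c = u * w := by
  have hb : zpowers y ⊓ closure ({a, b, s} : Set G) = ⊥ :=
    (disjoint_of_coprime_natCard (by rw [card_y h, cW h]; decide)).eq_bot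
  let f : zpowers y × closure ({a, b, s} : Set G) → ↥(L ⊓ C1 (a ^ 2 * b ^ 2)) := fun p =>
    ⟨p.1 * p.2, mul_mem ((zpowers_le (G := G)).2 (y_mem h) p.1.2) (W_le h p.2.2)⟩
  have hf : Function.Injective f := fun p q e => by
    have e1 : (p.1 : G) * p.2 = q.1 * q.2 := congrArg Subtype.val e
    have e2 : (q.1 : G)⁻¹ * p.1 = q.2 * (p.2 : G)⁻¹ := by
      rw [inv_mul_eq_iff_eq_mul, ← mul_assoc, ← e1, mul_inv_cancel_right]
    have e3 : (q.1 : G)⁻¹ * p.1 ∈ zpowers y ⊓ closure ({a, b, s} : Set G) :=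
      mem_inf.2 ⟨mul_mem (inv_mem q.1.2) p.1.2, e2 ▸ mul_mem q.2.2 (inv_mem p.2.2)⟩
    rw [hb, mem_bot, inv_mul_eq_one] at e3
    exact Prod.ext (Subtype.ext e3.symm) (Subtype.ext (mul_left_cancel (e1.trans (by rw [e3]))))
  obtain ⟨p, hp⟩ := ((Nat.bijective_iff_injective_and_card f).2 ⟨hf, by
    rw [Nat.card_prod, card_y h, cW h, h.cz]⟩).2 ⟨c, hc⟩
  exact ⟨_, p.1.2, _, p.2.2, (congrArg Subtype.val hp).symm⟩

theorem ab4 : (a * b) ^ 4 = 1 := by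
  rw [(show Commute a b from h.ab).mul_pow, h.a4, h.b4, mul_one]

theorem cJy {c : G} (hc : c ∈ L ⊓ C1 (a ^ 2 * b ^ 2)) (hy : Commute c y) {k : ℕ}
    (hk : c ^ 2 ^ k = 1) : c ∈ zpowers (a * b) := by
  obtain ⟨u, hu, w, hw, rfl⟩ := dec h hc
  have h1 : Commute u y := by
    obtain ⟨m, rfl⟩ := hu
    exact Commute.zpow_left rfl m
  have h2 : Commute w y := by simpa using h1.inv_left.mul_left hy
  have h3 := cWy h hw h2
  have h4 : Commute u w := by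
    obtain ⟨m, rfl⟩ := hu
    exact h2.symm.zpow_left m
  have h5 : w ^ 4 = 1 := by
    obtain ⟨m, rfl⟩ := h3
    rw [← zpow_natCast, ← zpow_mul, mul_comm, zpow_mul, zpow_natCast, ab4 h, one_zpow]
  have h6 : u ^ (2 ^ k * 4) = 1 := by
    have := congrArg (· ^ 4) hk
    simp only [one_pow] at this
    rwa [← pow_mul, h4.mul_pow, mul_comm _ 4, pow_mul w, h5, one_pow, mul_one, mul_comm] at this
  have h7 : u ^ 3 = 1 := by
    obtain ⟨m, rfl⟩ := hu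
    rw [← zpow_natCast, ← zpow_mul, mul_comm, zpow_mul, zpow_natCast, h.y3, one_zpow]
  have h8 : u = 1 := (pow_eq_one_iff_of_coprime (m := 2 ^ k * 4) (n := 3)
    (Nat.Coprime.mul_left (Nat.Coprime.pow_left _ (by decide)) (by decide))).1 ⟨h6, h7⟩
  rwa [h8, one_mul]

theorem c3 (o : G) (ho : o ∈ L) (o3 : orderOf o = 3) (U : Subgroup G) (hU : U ≤ L)
    (h2 : IsPGroup 2 U) (hc : U ≤ C1 o) : IsCyclic U ∧ Nat.card U ≤ 4 := by
  suffices ∃ g, cj g U ≤ zpowers (a * b) by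
    obtain ⟨g, hg⟩ := this
    refine ⟨?_, ?_⟩
    · have := isCyclic_of_le hg
      exact isCyclic_of_surjective _ 
        (U.equivMapOfInjective (MulAut.conj g).toMonoidHom (MulAut.conj g).injective).symm.surjective
    · rw [← card_cj g]
      refine (card_le_of_le hg).trans ?_
      rw [Nat.card_zpowers]
      exact orderOf_le_of_pow_eq_one (by decide) (ab4 h)
  rcases U.bot_or_nontrivial with rfl | hn
  · exact ⟨1, by rw [cj_bot]; exact bot_le⟩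
  have := h2.center_nontrivial
  obtain ⟨t, ht⟩ := exists_prime_orderOf_dvd_card' (G := center U) 2
    ((h2.to_subgroup (center U)).nontrivial_iff_card.1 inferInstance |>.elim fun n hn => by
      rw [hn.2]; exact dvd_pow_self 2 hn.1.ne')
  obtain ⟨g, hg, e⟩ := h.one t.1.1 (hU t.1.2) (by rw [orderOf_coe, orderOf_coe, ht])
  have k1 : ∀ c : G, c ∈ L → t.1.1 * c = c * t.1.1 → g * c * g⁻¹ ∈ L ⊓ C1 (a ^ 2 * b ^ 2) :=
    fun c h3 h4 => mem_inf.2 ⟨mul_mem (mul_mem hg h3) (inv_mem hg), mC.2 (by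
      rw [← e]
      calc _ = g * (t.1.1 * c) * g⁻¹ := by group
        _ = _ := by rw [h4]; group)⟩
  have : Fact (Nat.Prime 3) := ⟨by decide⟩
  have o1 : o ^ 3 = 1 := o3 ▸ pow_orderOf_eq_one o
  obtain ⟨k, hk, h3⟩ := (syl_of_card (p := 3) (k := 1) ((zpowers_le (G := G)).2 (y_mem h))
    (card_y h) (by rw [h.cz]; decide)).exists_le_cj
    (isPGroup_zpowers (k := 1) (x := g * o * g⁻¹) (by rw [conj_pow, pow_one, o1]; group))
    ((zpowers_le (G := G)).2 (k1 o ho (mC.1 (hc t.1.2)).symm))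
  have h4 : zpowers (g * o * g⁻¹) = cj k (zpowers y) := eq_of_le_of_card_ge h3 (by
    rw [card_cj, card_y h, Nat.card_zpowers, ← MulAut.conj_apply, MulEquiv.orderOf_eq, o3])
  obtain ⟨m, hm⟩ : k * y * k⁻¹ ∈ zpowers (g * o * g⁻¹) := h4 ▸ conj_mem_cj (mem_zpowers y)
  refine ⟨k⁻¹ * g, ?_⟩
  rintro _ ⟨c, hcU, rfl⟩
  obtain ⟨n, hn⟩ := isPGroup_iff_forall.1 h2 c hcU
  have h5 := k1 c (hU hcU) (congrArg Subtype.val (mem_center_iff.1 t.2 ⟨c, hcU⟩)).symm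
  refine cJy h (k := n) ?_ ?_ (by rw [← map_pow, hn, map_one])
  · have := mul_mem (mul_mem (inv_mem hk) h5) hk
    convert this using 1
    simp [mul_assoc]
  · have h6 : Commute (g * c * g⁻¹) (k * y * k⁻¹) := by
      rw [← hm]
      exact Commute.zpow_right (Commute.map (f := MulAut.conj g) (mC.1 (hc hcU)).symm) m
    have h7 := h6.map (MulAut.conj k⁻¹)
    simpa [mul_assoc] using h7

end

theorem jobUM : JobUM.{u} := fun _ _ _ _ _ _ _ _ _ h =>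
  ⟨h, two h, c3 h, syl h, cW h, cH h, rk h, cen h⟩

end H97.DPU
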