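import Cfsg.Agent.H97.GaBas

/-! GAG tower (S4841): assembly of the odd characteristic case. -/

set_option autoImplicit false

namespace H97.Ga

universe u v

theorem sl2_equiv_of_card {F : Type} [Field F] [Fintype F] {r : ℕ} [Fact r.Prime]
    (h : Fintype.card F = r) : Nonempty (SL2 F ≃* SL2 (ZMod r)) := by
  let e : F ≃+* ZMod r := (ZMod.ringEquivOfPrime F Fact.out h).symm
  refine ⟨MonoidHom.toMulEquiv (Matrix.SpecialLinearGroup.map (e : F →+* ZMod r))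
    (Matrix.SpecialLinearGroup.map (e.symm : ZMod r →+* F)) ?_ ?_⟩
  · ext x i j
    simp
  · ext x i j
    simp

theorem odd_case (hL : JobL.{u, v}) (hA7 : JobA7.{u, v}) (hX : JobX3.{v}) (hD : JobDef.{v})
    (hP : JobP3.{v}) (hA : JobA.{u, v}) (hB : JobB.{u, v}) (hC : JobC.{u, v})
    (p : ℕ) [hp : Fact p.Prime] {H : Type u} [Group H] [Finite H] {V : Type v} [AddCommGroup V]
    [Module (ZMod p) V] [Finite V] [Nontrivial V] (ρ : Representation (ZMod p) H V)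
    (hp2 : p ≠ 2) (h : Hyp p ρ) :
    Br1 p H ∨ (p = 3 ∧ Br2 H) ∨ (p = 3 ∧ Nonempty (H ≃* SL2 (ZMod 13))) ∨
    (p = 11 ∧ Nonempty (H ≃* SL2 (ZMod 5))) ∨
    (p = 29 ∧ Nonempty (H ≃* SL2 (ZMod 5) × Multiplicative (ZMod 7))) ∨
    (p = 59 ∧ Nonempty (H ≃* SL2 (ZMod 5) × Multiplicative (ZMod 29))) := by
  obtain ⟨L, hLn, ⟨F, _, _, hodd, h3, ⟨e⟩⟩ | h7⟩ := hL p ρ hp2 h
  swap
  · exact absurd h7 (hA7 p _ hp2 (h.sr.comp_normal L))
  have hsr := h.sr.comp_normal_equiv L e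
  by_cases hpF : p ∣ Fintype.card F
  · exact Or.inl (hA p ρ hp2 h F L ⟨e⟩ hpF (hD p F _ hsr hpF))
  have : Fact (Nat.Prime 5) := ⟨by norm_num⟩
  have : Fact (Nat.Prime 13) := ⟨by norm_num⟩
  by_cases hp3 : p = 3
  · subst hp3
    have hi : Function.Injective ((ρ.comp L.subtype).comp e.symm.toMonoidHom) :=
      (h.inj.comp L.subtype_injective).comp e.symm.injective
    rcases hP F _ hi hsr hodd hpF with ⟨h1, h2⟩ | ⟨h1, h2⟩
    · obtain ⟨f⟩ := sl2_equiv_of_card h1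
      exact Or.inr (Or.inl ⟨rfl, (hB ρ h L).1 ⟨e.trans f⟩ h2⟩)
    · obtain ⟨f⟩ := sl2_equiv_of_card h1
      exact Or.inr (Or.inr (Or.inl ⟨rfl, (hB ρ h L).2 ⟨e.trans f⟩ h2⟩))
  · have h5 := (hX p F _ hsr.fp hodd h3 hpF).2 hp3
    obtain ⟨f⟩ := sl2_equiv_of_card h5
    have hp7 : 7 ≤ p := by
      have h2 := hp.out.two_le
      have h5' : p ≠ 5 := fun e => hpF (by rw [e, h5])
      have h4 : p ≠ 4 := fun e => by have := hp.out; rw [e] at this; norm_num at this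
      have h6 : p ≠ 6 := fun e => by have := hp.out; rw [e] at this; norm_num at this
      omega
    exact Or.inr (Or.inr (Or.inr (hC p ρ hp7 h L ⟨e.trans f⟩)))

/-- The statement delivered for `p = 2`. -/
def JobTwo : Prop :=
  ∀ {H V : Type u} [Group H] [Finite H] [AddCommGroup V] [Module (ZMod 2) V] [Finite V]
    [Nontrivial V] (ρ : Representation (ZMod 2) H V), Hyp 2 ρ → Br1 2 H

theorem s4841_of (hR : JobRed.{u}) (h2 : JobTwo.{u}) (hL : JobL.{u, u}) (hA7 : JobA7.{u, u})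
    (hX : JobX3.{u}) (hD : JobDef.{u}) (hP : JobP3.{u}) (hA : JobA.{u, u}) (hB : JobB.{u, u})
    (hC : JobC.{u, u}) {G : Type u} [Group G] [Finite G] (hns : ¬ Group.IsSolvable G)
    (χ : Cfsg.IrrCharacter G)
    (hχ : Nat.card {C : ConjClasses G // ∃ g ∈ C.carrier, (χ : G → ℂ) g ≠ 0} = 2) :
    ∃ p : ℕ, p.Prime ∧ (∀ q : ℕ, q.Prime → (Cfsg.pCore q G ≠ ⊥ ↔ q = p)) ∧
      (Br1 p (G ⧸ Cfsg.pCore p G) ∨ (p = 3 ∧ Br2 (G ⧸ Cfsg.pCore p G)) ∨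
        (p = 3 ∧ Nonempty ((G ⧸ Cfsg.pCore p G) ≃* SL2 (ZMod 13))) ∨
        (p = 11 ∧ Nonempty ((G ⧸ Cfsg.pCore p G) ≃* SL2 (ZMod 5))) ∨
        (p = 29 ∧ Nonempty ((G ⧸ Cfsg.pCore p G) ≃* SL2 (ZMod 5) × Multiplicative (ZMod 7))) ∨
        (p = 59 ∧ Nonempty ((G ⧸ Cfsg.pCore p G) ≃* SL2 (ZMod 5) × Multiplicative (ZMod 29)))) := by
  obtain ⟨p, hp, huniq, V, _, _, _, _, ρ, h⟩ := hR hns χ hχ
  refine ⟨p, hp, huniq, ?_⟩
  have := Fact.mk hp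
  by_cases hp2 : p = 2
  · subst hp2
    exact Or.inl (h2 ρ h)
  · exact odd_case hL hA7 hX hD hP hA hB hC p ρ hp2 h

end H97.Ga
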