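import Cfsg.Agent.H97.GaBas
import Cfsg.Agent.H40.Gagola3

/-! GAG tower (S4841): from the character to the module. -/

set_option autoImplicit false

namespace H97.Ga

open Cfsg

universe u

theorem exists_rep0 {H A : Type u} [Group H] [AddCommGroup A] (p : ℕ) [Module (ZMod p) A]
    (f : H → A →+ A) (h1 : ∀ v, f 1 v = v) (h2 : ∀ a b v, f (a * b) v = f a (f b v)) :
    ∃ ρ : Representation (ZMod p) H A, ∀ g v, ρ g v = f g v :=
  ⟨{ toFun := fun g => (f g).toZModLinearMap p
     map_one' := LinearMap.ext h1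
     map_mul' := fun a b => LinearMap.ext (h2 a b) }, fun _ _ => rfl⟩

theorem exists_rep {H W : Type u} [Group H] [CommGroup W] (p : ℕ) [Fact p.Prime]
    (hW : ∀ w : W, w ^ p = 1) (φ : H →* MulAut W) :
    ∃ (_ : Module (ZMod p) (Additive W)) (ρ : Representation (ZMod p) H (Additive W)),
      ∀ g v, ρ g v = Additive.ofMul (φ g v.toMul) := by
  let M : Module (ZMod p) (Additive W) := AddCommGroup.zmodModule fun x => by
    rw [← ofMul_toMul x, ← ofMul_pow, hW, ofMul_one]
  exact ⟨M, exists_rep0 p (fun g => MonoidHom.toAdditive (φ g).toMonoidHom)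
    (fun v => by simp) fun a b v => by simp⟩

theorem jobRed : JobRed.{u} := by
  intro G _ _ hns χ hχ
  have hG : 2 < Nat.card G := by
    by_contra hle
    have h0 : 0 < Nat.card G := Nat.card_pos
    have h1 : Nat.card G = 1 ∨ Nat.card G = 2 := by omega
    rcases h1 with h1 | h1
    · have := (Nat.card_eq_one_iff_unique.1 h1).1
      exact hns inferInstance
    · have : Fact (Nat.Prime 2) := ⟨Nat.prime_two⟩
      have := isCyclic_of_prime_card h1
      let _ := IsCyclic.commGroup (α := G)
      exact hns inferInstance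
  obtain ⟨N, a, c, h⟩ := H40.exists_gag χ.2 hG hχ
  obtain ⟨p, hp, -, hNp'⟩ := h.exists_elemab
  have := Fact.mk hp
  have := h.normal
  have hNp : IsPGroup p N := fun x => ⟨1, Subtype.ext (by simpa using hNp' x x.2)⟩
  refine ⟨p, hp, fun q hq => ⟨fun hne => ?_, ?_⟩, ?_⟩
  · by_contra hqp
    have := Fact.mk hq
    exact h.ne_bot (disjoint_self.1 (IsPGroup.disjoint_of_ne q p hqp _ _
      ((H2.pCore_isPGroup q G).to_le (h.le_of_normal _ hne)) hNp))
  · rintro rfl hb
    exact h.ne_bot (eq_bot_iff.2 (hb ▸ H2.le_pCore hNp))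
  have : Nontrivial N := (Subgroup.nontrivial_iff_ne_bot N).2 h.ne_bot
  have hker : ∀ g : G, g ∈ pCore p G ↔ (MulAut.conjNormal g : MulAut N) = 1 := fun g => by
    rw [h.pCore_eq_centralizer hNp]
    refine ⟨fun hg => MulEquiv.ext fun n => Subtype.ext ?_, fun hg n hn => ?_⟩
    · rw [MulAut.conjNormal_apply, ← hg n n.2, mul_inv_cancel_right]
      rfl
    · have := congrArg Subtype.val (DFunLike.congr_fun hg ⟨n, hn⟩)
      exact (mul_inv_eq_iff_eq_mul.1 this).symm
  let φ : G ⧸ pCore p G →* MulAut N :=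
    QuotientGroup.lift _ MulAut.conjNormal fun g hg => (hker g).1 hg
  let _ : CommGroup N :=
    { (inferInstance : Group N) with mul_comm := fun x y => Subtype.ext (h.comm x x.2 y y.2) }
  obtain ⟨M, ρ, hρ⟩ := exists_rep p (fun w : N => Subtype.ext (hNp' w w.2)) φ
  refine ⟨Additive N, inferInstance, M, inferInstance, inferInstance, ρ,
    (injective_iff_map_eq_one ρ).2 fun q hq => ?_, fun hs => hns ?_, H2.pCore_quotient_pCore p G,
    fun v hv => ?_, fun v w hv hw => ?_⟩
  · obtain ⟨g, rfl⟩ := QuotientGroup.mk_surjective q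
    refine (QuotientGroup.eq_one_iff g).2 ((hker g).2 (MulEquiv.ext fun n => ?_))
    have h1 := hρ g (Additive.ofMul n)
    rw [hq] at h1
    exact (congrArg Additive.toMul h1).symm
  · have := (H2.pCore_isPGroup p G).isNilpotent
    exact Group.isSolvable_of_ker_le_range (pCore p G).subtype (QuotientGroup.mk' (pCore p G))
      (by rw [QuotientGroup.ker_mk', Subgroup.range_subtype])
  · obtain ⟨P, hP⟩ := h.exists_sylow_of_index hNp
      (h.index v.toMul v.toMul.2 fun e => hv (Subtype.ext e))
    refine ⟨P.mapSurjective (QuotientGroup.mk'_surjective _), fun q => ?_⟩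
    obtain ⟨g, rfl⟩ := QuotientGroup.mk_surjective q
    rw [Sylow.coe_mapSurjective, ← QuotientGroup.mk'_apply, ← Subgroup.mem_comap,
      Subgroup.comap_map_eq_self (by rw [QuotientGroup.ker_mk']; exact H2.pCore_le_sylow P), ← hP,
      H28.mem_centralizer_singleton_conj, hρ]
    exact ⟨fun e => congrArg (fun x : Additive N => (x.toMul : G)) e, fun e => Subtype.ext e⟩
  · obtain ⟨g, hg⟩ := isConj_iff.1 (h.isConj v.toMul v.toMul.2 w.toMul w.toMul.2
      (fun e => hv (Subtype.ext e)) fun e => hw (Subtype.ext e))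
    exact ⟨g, (hρ g v).trans (Subtype.ext hg)⟩

end H97.Ga
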