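import Cfsg.Agent.Base

/-! Specification of the GAG tower (S4841, Gagola), odd characteristic part.
`H` is a finite group with a faithful representation `ρ` on a finite nonzero `𝔽_p`-space `V`,
transitive on the nonzero vectors, with Sylow `p`-subgroups as stabilisers. -/

set_option autoImplicit false

namespace H97.Ga

universe u v

/-- `SL₂(F)`. -/
abbrev SL2 (F : Type*) [CommRing F] := Matrix.SpecialLinearGroup (Fin 2) F

section defs
variable (p : ℕ) {H : Type u} {V : Type v} [Group H] [AddCommGroup V] [Module (ZMod p) V]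

/-- The stabiliser of every nonzero vector is a Sylow `p`-subgroup. -/
def SR (ρ : Representation (ZMod p) H V) : Prop :=
  ∀ v : V, v ≠ 0 → ∃ P : Sylow p H, ∀ g, ρ g v = v ↔ g ∈ (P : Subgroup H)

/-- An element fixing a nonzero vector is a `p`-element. -/
def FP (ρ : Representation (ZMod p) H V) : Prop :=
  ∀ (g : H) (v : V), v ≠ 0 → ρ g v = v → ∃ k : ℕ, g ^ p ^ k = 1

/-- The standing hypotheses. -/
structure Hyp (ρ : Representation (ZMod p) H V) : Prop where
  inj : Function.Injective ρ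
  ns : ¬ Group.IsSolvable H
  core : Cfsg.pCore p H = ⊥
  sr : SR p ρ
  tr : ∀ v w : V, v ≠ 0 → w ≠ 0 → ∃ g, ρ g v = w

end defs

/-- Branch (i) of S4841. -/
def Br1 (p : ℕ) (H : Type u) [Group H] : Prop :=
  ∃ (F : Type) (_ : Field F) (_ : Fintype F), (∃ a : ℕ, Fintype.card F = p ^ a) ∧
    2 < Fintype.card F ∧
    ∃ S : Subgroup H, S.Normal ∧ Nonempty (S ≃* Matrix.SpecialLinearGroup (Fin 2) F) ∧
      (∃ k : ℕ, S.index = p ^ k) ∧ (∃ h : H, S ⊔ Subgroup.zpowers h = ⊤) ∧
      Subgroup.centralizer (S : Set H) = (Subgroup.center S).map S.subtype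

/-- Branch (ii) of S4841. -/
def Br2 (H : Type u) [Group H] : Prop :=
  ∃ S : Subgroup H, S.Normal ∧ S.index = 2 ∧
    Nonempty (S ≃* Matrix.SpecialLinearGroup (Fin 2) (ZMod 5)) ∧
    Subgroup.centralizer (S : Set H) = (Subgroup.center S).map S.subtype ∧
    ∀ K : Subgroup H, ¬ Subgroup.IsComplement' S K

/-- Reduction from the character to the linear action of `G / O_p(G)`. -/
def JobRed : Prop :=
  ∀ {G : Type u} [Group G] [Finite G], ¬ Group.IsSolvable G → ∀ (χ : Cfsg.IrrCharacter G),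
    Nat.card {C : ConjClasses G // ∃ g ∈ C.carrier, (χ : G → ℂ) g ≠ 0} = 2 →
    ∃ p : ℕ, p.Prime ∧ (∀ q : ℕ, q.Prime → (Cfsg.pCore q G ≠ ⊥ ↔ q = p)) ∧
      ∃ (V : Type u) (_ : AddCommGroup V) (_ : Module (ZMod p) V)
        (_ : Finite V) (_ : Nontrivial V)
        (ρ : Representation (ZMod p) (G ⧸ Cfsg.pCore p G) V), Hyp p ρ

/-- The outer automorphisms induced on a normal `SL₂(F)`. -/
def JobOut : Prop :=
  ∀ {H : Type u} [Group H] [Finite H] (F : Type) [Field F] [Fintype F] (L : Subgroup H)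
    [L.Normal], Nonempty (L ≃* SL2 F) →
    ∃ K : Subgroup H, K.Normal ∧ L ⊔ Subgroup.centralizer (L : Set H) ≤ K ∧
      (∃ h : H, K ⊔ Subgroup.zpowers h = ⊤) ∧
      (L ⊔ Subgroup.centralizer (L : Set H)).relIndex K ∣ 2 ∧
      ((Fintype.card F).Prime → K = ⊤)

/-- Sylow 3-subgroups of `SL₂(F)` in characteristic other than 2 and 3. -/
def JobSyl3 : Prop :=
  ∀ (F : Type) [Field F] [Fintype F], Odd (Fintype.card F) → ¬ 3 ∣ Fintype.card F →
    ∀ P : Sylow 3 (SL2 F), IsCyclic (P : Subgroup (SL2 F)) ∧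
      (∀ Q : Sylow 3 (SL2 F), (P : Subgroup (SL2 F)) ⊓ Q ≠ ⊥ → P = Q) ∧
      (Fintype.card F % 3 = 1 →
        Nat.card (Subgroup.normalizer ((P : Subgroup (SL2 F)) : Set (SL2 F))) =
          2 * (Fintype.card F - 1)) ∧
      (Fintype.card F % 3 = 2 →
        Nat.card (Subgroup.normalizer ((P : Subgroup (SL2 F)) : Set (SL2 F))) =
          2 * (Fintype.card F + 1))

/-- Cross characteristic: the field is a prime field, and has 5 elements unless `p = 3`. -/
def JobX3 : Prop :=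
  ∀ (p : ℕ) [Fact p.Prime] (F : Type) [Field F] [Fintype F] {V : Type v} [AddCommGroup V]
    [Module (ZMod p) V] [Finite V] [Nontrivial V] (ρ : Representation (ZMod p) (SL2 F) V),
    FP p ρ → Odd (Fintype.card F) → 3 < Fintype.card F → ¬ p ∣ Fintype.card F →
    (Fintype.card F).Prime ∧ (p ≠ 3 → Fintype.card F = 5)

/-- Defining characteristic: `V` has `|F|²` elements. -/
def JobDef : Prop :=
  ∀ (p : ℕ) [Fact p.Prime] (F : Type) [Field F] [Fintype F] {V : Type v} [AddCommGroup V]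
    [Module (ZMod p) V] [Finite V] [Nontrivial V] (ρ : Representation (ZMod p) (SL2 F) V),
    SR p ρ → p ∣ Fintype.card F → Nat.card V = Fintype.card F ^ 2

/-- Cross characteristic with `p = 3`. -/
def JobP3 : Prop :=
  ∀ (F : Type) [Field F] [Fintype F] {V : Type v} [AddCommGroup V]
    [Module (ZMod 3) V] [Finite V] [Nontrivial V] (ρ : Representation (ZMod 3) (SL2 F) V),
    Function.Injective ρ → SR 3 ρ → Odd (Fintype.card F) → ¬ 3 ∣ Fintype.card F →
    (Fintype.card F = 5 ∧ Nat.card V = 81) ∨ (Fintype.card F = 13 ∧ Nat.card V = 729)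

/-- The double cover of `A₇` does not occur. -/
def JobA7 : Prop :=
  ∀ (p : ℕ) [Fact p.Prime] {X : Type u} [Group X] [Finite X] {V : Type v} [AddCommGroup V]
    [Module (ZMod p) V] [Finite V] [Nontrivial V] (ρ : Representation (ZMod p) X V),
    p ≠ 2 → SR p ρ → ¬ Cfsg.IsNonsplitDoubleCover X (alternatingGroup (Fin 7))

/-- The perfect residual. -/
def JobL : Prop :=
  ∀ (p : ℕ) [Fact p.Prime] {H : Type u} [Group H] [Finite H] {V : Type v} [AddCommGroup V]
    [Module (ZMod p) V] [Finite V] [Nontrivial V] (ρ : Representation (ZMod p) H V),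
    p ≠ 2 → Hyp p ρ → ∃ L : Subgroup H, L.Normal ∧
      ((∃ (F : Type) (_ : Field F) (_ : Fintype F), Odd (Fintype.card F) ∧ 3 < Fintype.card F ∧
        Nonempty (L ≃* SL2 F)) ∨ Cfsg.IsNonsplitDoubleCover L (alternatingGroup (Fin 7)))

/-- Defining characteristic gives branch (i). -/
def JobA : Prop :=
  ∀ (p : ℕ) [Fact p.Prime] {H : Type u} [Group H] [Finite H] {V : Type v} [AddCommGroup V]
    [Module (ZMod p) V] [Finite V] [Nontrivial V] (ρ : Representation (ZMod p) H V),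
    p ≠ 2 → Hyp p ρ → ∀ (F : Type) [Field F] [Fintype F] (L : Subgroup H) [L.Normal],
    Nonempty (L ≃* SL2 F) → p ∣ Fintype.card F → Nat.card V = Fintype.card F ^ 2 → Br1 p H

/-- Branches (ii) and (iii). -/
def JobB : Prop :=
  ∀ {H : Type u} [Group H] [Finite H] {V : Type v} [AddCommGroup V]
    [Module (ZMod 3) V] [Finite V] [Nontrivial V] (ρ : Representation (ZMod 3) H V),
    Hyp 3 ρ → ∀ (L : Subgroup H) [L.Normal],
    (Nonempty (L ≃* SL2 (ZMod 5)) → Nat.card V = 81 → Br2 H) ∧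
    (Nonempty (L ≃* SL2 (ZMod 13)) → Nat.card V = 729 → Nonempty (H ≃* SL2 (ZMod 13)))

/-- A normal subgroup of index dividing 120 with a non-abelian centraliser acts by scalars. -/
def JobC1 : Prop :=
  ∀ (p : ℕ) [Fact p.Prime] {H : Type u} [Group H] [Finite H] {V : Type v} [AddCommGroup V]
    [Module (ZMod p) V] [Finite V] [Nontrivial V] (ρ : Representation (ZMod p) H V),
    7 ≤ p → Function.Injective ρ → (∀ v w : V, v ≠ 0 → w ≠ 0 → ∃ g, ρ g v = w) →
    ∀ (C : Subgroup H) [C.Normal], C.index ∣ 120 →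
    (∃ a ∈ Subgroup.centralizer (C : Set H), ∃ b ∈ Subgroup.centralizer (C : Set H),
      a * b ≠ b * a) →
    Nat.card V = p ^ 2 ∧ ¬ p ∣ Nat.card C

/-- Branches (iv), (v) and (vi). -/
def JobC : Prop :=
  ∀ (p : ℕ) [Fact p.Prime] {H : Type u} [Group H] [Finite H] {V : Type v} [AddCommGroup V]
    [Module (ZMod p) V] [Finite V] [Nontrivial V] (ρ : Representation (ZMod p) H V),
    7 ≤ p → Hyp p ρ → ∀ (L : Subgroup H) [L.Normal], Nonempty (L ≃* SL2 (ZMod 5)) →
    (p = 11 ∧ Nonempty (H ≃* SL2 (ZMod 5))) ∨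
    (p = 29 ∧ Nonempty (H ≃* SL2 (ZMod 5) × Multiplicative (ZMod 7))) ∨
    (p = 59 ∧ Nonempty (H ≃* SL2 (ZMod 5) × Multiplicative (ZMod 29)))

/-- The counting facts (proved in `H97/GaBas.lean`). -/
def JobCount : Prop :=
  ∀ (p : ℕ) [Fact p.Prime] {H : Type u} [Group H] [Finite H] {V : Type v} [AddCommGroup V]
    [Module (ZMod p) V] [Finite V] [Nontrivial V] (ρ : Representation (ZMod p) H V),
    SR p ρ → ∀ (U : Sylow p H) (w : ℕ),
    w = Nat.card {v : V // ∀ g ∈ (U : Subgroup H), ρ g v = v} →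
    (∃ m n : ℕ, 0 < m ∧ w = p ^ m ∧ Nat.card V = p ^ n) ∧
    Nat.card V - 1 = Nat.card (Sylow p H) * (w - 1) ∧
    (Nat.card (Sylow p H) ≠ 1 → w ^ 2 ≤ Nat.card V) ∧
    (U : Subgroup H).index ∣ Nat.card V - 1 ∧
    (U : Subgroup H).relIndex (Subgroup.normalizer ((U : Subgroup H) : Set H)) ∣ w - 1 ∧
    (Nat.card (U : Subgroup H) = p → Nat.card V ≤ w ^ p)

end H97.Ga
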