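import Cfsg.Agent.H97.GaSpec

/-! GAG tower: the sharper form of `JobC1` that is used by `JobC`. -/

set_option autoImplicit false

namespace H97.Ga

universe u v

/-- A normal subgroup of index dividing 120 with a non-abelian centraliser fixes every line. -/
def JobC2 : Prop :=
  ∀ (p : ℕ) [Fact p.Prime] {H : Type u} [Group H] [Finite H] {V : Type v} [AddCommGroup V]
    [Module (ZMod p) V] [Finite V] [Nontrivial V] (ρ : Representation (ZMod p) H V),
    7 ≤ p → Function.Injective ρ → (∀ v w : V, v ≠ 0 → w ≠ 0 → ∃ g, ρ g v = w) →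
    ∀ (C : Subgroup H) [C.Normal], C.index ∣ 120 →
    (∃ a ∈ Subgroup.centralizer (C : Set H), ∃ b ∈ Subgroup.centralizer (C : Set H),
      a * b ≠ b * a) →
    Nat.card V = p ^ 2 ∧ ¬ p ∣ Nat.card C ∧ p + 1 ∣ 120

end H97.Ga
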