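import Cfsg.Agent.H24.KSm4
import Cfsg.Agent.H32.Extend
import Cfsg.Agent.H32.Gallagher
import Cfsg.Agent.H38.Fong
import Cfsg.Agent.H40.Coset2
import Cfsg.Agent.H3.SecRank

/-! The number of Brauer characters of a block of a `p`-solvable group: reduction to a count of
`p`-regular classes. -/

set_option autoImplicit false

open Cfsg H28

namespace H97.KgvL

universe u

theorem prop0 {H : Type*} [Group H] [Finite H] (N : Subgroup H) [hN : N.Normal]
    (hcyc : IsCyclic (H ⧸ N)) {θ : N → ℂ} (hθ : IsIrrCharacter N θ)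
    (hinv : ∀ (g : H) (n : N), θ ⟨g * n * g⁻¹, hN.conj_mem (n : H) n.2 g⟩ = θ n) (g : H) :
    ∃ X : H → ℂ, ∀ χ : H → ℂ, IsCharacter H χ → (∃ e : ℂ, ∀ n : N, χ n = e * θ n) →
      ∃ c : ℂ, ∀ n : N, χ (n * g) = c * X (n * g) := by
  classical
  cases nonempty_fintype H
  cases nonempty_fintype N
  obtain ⟨X, hX, hXθ⟩ := H32.exists_ext_of_cyclic hcyc hθ hinv
  have eX : (fun n : N => X n) = θ := funext hXθ
  refine ⟨X, fun χ hχ ⟨e, he⟩ => ?_⟩
  have key : ∀ ψ : IrrCharacter H, ∃ c : ℂ, ∀ n : N,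
      classInner χ ψ * (ψ : H → ℂ) (n * g) = c * X (n * g) := by
    intro ψ
    by_cases h0 : classInner χ ψ = 0
    · exact ⟨0, fun n => by rw [h0, zero_mul, zero_mul]⟩
    have h1 : classInner (fun n : N => (ψ : H → ℂ) n) (fun n : N => X n) ≠ 0 := by
      intro h1
      rw [eX, classInner_eq_zero_comm] at h1
      have e1 : (fun n : N => χ n) = e • θ := funext he
      have e2 : (fun n : N => χ n) =
          ∑ ψ' : IrrCharacter H, classInner χ ψ' • fun n : N => (ψ' : H → ℂ) n := by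
        funext n
        rw [hχ.isClassFunction.apply_eq_sum_irr]
        simp [Finset.sum_apply]
      have h2 : classInner (fun n : N => χ n) (fun n : N => (ψ : H → ℂ) n) = 0 := by
        rw [e1, classInner_smul_left, h1, mul_zero]
      rw [e2, classInner_sum_left] at h2
      simp only [classInner_smul_left] at h2
      choose a ha using fun ψ' : IrrCharacter H => hχ.classInner_nat ψ'.2.isCharacter
      choose b hb using fun ψ' : IrrCharacter H =>
        (ψ'.2.isCharacter.restrict N).classInner_nat (ψ.2.isCharacter.restrict N)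
      simp only [ha, hb] at h2
      have h3 : ∑ ψ' : IrrCharacter H, a ψ' * b ψ' = 0 := by exact_mod_cast h2
      rcases mul_eq_zero.1 (Finset.sum_eq_zero_iff.1 h3 ψ (Finset.mem_univ _)) with h4 | h4
      · exact h0 (by rw [ha, h4, Nat.cast_zero])
      · have h5 := hb ψ
        rw [h4, Nat.cast_zero, classInner_self_eq_zero] at h5
        exact ψ.2.apply_one_ne_zero (congrFun h5 1)
    obtain ⟨β, -, hk, e3⟩ := H32.gallagher_surj hX.isCharacter (eX ▸ hθ) ψ.2 h1
    refine ⟨classInner χ ψ * β g, fun n => ?_⟩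
    rw [mul_assoc, ← apply_mul_of_mem_charKer (hk n.2) g]
    exact congrArg _ (congrFun e3 _)
  choose c hc using key
  refine ⟨∑ ψ, c ψ, fun n => ?_⟩
  rw [hχ.isClassFunction.apply_eq_sum_irr, Finset.sum_mul]
  exact Finset.sum_congr rfl fun ψ _ => hc ψ n

theorem prop1 {G : Type*} [Group G] [Finite G] (N : Subgroup G) [hN : N.Normal]
    {θ : N → ℂ} (hθ : IsIrrCharacter N θ)
    (hinv : ∀ (g : G) (n : N), θ ⟨g * n * g⁻¹, hN.conj_mem (n : G) n.2 g⟩ = θ n) (g : G) :
    ∃ φ : N → ℂ, ∀ χ : G → ℂ, IsCharacter G χ → (∃ e : ℂ, ∀ n : N, χ n = e * θ n) →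
      ∃ c : ℂ, ∀ n : N, χ (n * g) = c * φ n := by
  have hle : N ≤ N ⊔ Subgroup.zpowers g := le_sup_left
  have hg : g ∈ N ⊔ Subgroup.zpowers g := Subgroup.mem_sup_right (Subgroup.mem_zpowers g)
  have hs : N.subgroupOf (N ⊔ Subgroup.zpowers g) ⊔
      Subgroup.zpowers (⟨g, hg⟩ : ↥(N ⊔ Subgroup.zpowers g)) = ⊤ := by
    apply Subgroup.map_injective (Subgroup.subtype_injective _)
    rw [Subgroup.map_sup, Subgroup.map_subgroupOf_eq_of_le hle, MonoidHom.map_zpowers,
      ← MonoidHom.range_eq_map, Subgroup.range_subtype]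
    rfl
  obtain ⟨X, hX⟩ := prop0 (N.subgroupOf (N ⊔ Subgroup.zpowers g)) (H40.isCyclic_quot_of_sup _ _ hs)
    (hθ.comp_mulEquiv (Subgroup.subgroupOfEquivOfLe hle))
    (fun x n => hinv x ⟨n.1.1, n.2⟩) ⟨g, hg⟩
  refine ⟨fun n => X (⟨n, hle n.2⟩ * ⟨g, hg⟩), fun χ hχ ⟨e, he⟩ => ?_⟩
  obtain ⟨c, hc⟩ := hX (fun x => χ x) (hχ.restrict _) ⟨e, fun n => he ⟨n.1.1, n.2⟩⟩
  exact ⟨c, fun n => hc ⟨⟨n, hle n.2⟩, n.2⟩⟩

theorem rank_le {G : Type*} [Group G] [Finite G] {p : ℕ} [hp : Fact p.Prime] (N : Subgroup G)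
    [hN : N.Normal] (hpN : ¬ p ∣ Nat.card N) {θ : N → ℂ} (hθ : IsIrrCharacter N θ)
    (hinv : ∀ (g : G) (n : N), θ ⟨g * n * g⁻¹, hN.conj_mem (n : G) n.2 g⟩ = θ n)
    (B : Set (IrrCharacter G)) (hB : ∀ χ ∈ B, ∃ e : ℂ, ∀ n : N, (χ : G → ℂ) n = e * θ n) :
    blockRank p B ≤
      Nat.card {C : ConjClasses (G ⧸ N) // ∃ g, ConjClasses.mk g = C ∧ ¬ p ∣ orderOf g} := by
  classical
  set R := {C : ConjClasses (G ⧸ N) // ∃ g, ConjClasses.mk g = C ∧ ¬ p ∣ orderOf g}
  have hr : ∀ C : R, ∃ g : G, ConjClasses.mk (g : G ⧸ N) = C.1 ∧ ¬ p ∣ orderOf (g : G ⧸ N) := by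
    rintro ⟨C, x, h1, h2⟩
    obtain ⟨g, rfl⟩ := QuotientGroup.mk_surjective x
    exact ⟨g, h1, h2⟩
  choose r hr1 hr2 using hr
  choose φ hφ using fun C : R => prop1 N hθ hinv (r C)
  have hm : ∀ C : R, ∃ m : N, φ C m = 0 → ∀ n, φ C n = 0 := fun C => by
    by_cases h : ∀ n, φ C n = 0
    · exact ⟨1, fun _ => h⟩
    · obtain ⟨n, hn⟩ := not_forall.1 h
      exact ⟨n, fun e => absurd e hn⟩
  choose m hm using hm
  have reg : ∀ (C : R) (n : N), ¬ p ∣ orderOf ((n : G) * r C) := fun C n hd => by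
    have h1 : ((n : G) * r C) ^ orderOf (r C : G ⧸ N) ∈ N := by
      rw [← QuotientGroup.eq_one_iff, QuotientGroup.mk_pow, QuotientGroup.mk_mul,
        (QuotientGroup.eq_one_iff _).2 n.2, one_mul, pow_orderOf_eq_one]
    have h2 : ((n : G) * r C) ^ (orderOf (r C : G ⧸ N) * Nat.card N) = 1 := by
      rw [pow_mul]
      exact congrArg Subtype.val (pow_card_eq_one' (x := (⟨_, h1⟩ : N)))
    exact (hp.out.dvd_mul.1 (hd.trans (orderOf_dvd_of_pow_eq_one h2))).elim (hr2 C) hpN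
  have key : ∀ f ∈ Submodule.span ℂ ((fun χ : IrrCharacter G => pRegularPart p (χ : G → ℂ)) '' B),
      (∀ x y : G, f (y * x * y⁻¹) = f x) ∧ (∀ x, p ∣ orderOf x → f x = 0) ∧
        ∀ C : R, ∃ c : ℂ, ∀ n : N, f (n * r C) = c * φ C n := by
    intro f hf
    induction hf using Submodule.span_induction with
    | mem f hf =>
      obtain ⟨χ, hχ, rfl⟩ := hf
      refine ⟨fun x y => ?_, fun x hx => if_neg (not_not.2 hx), fun C => ?_⟩
      · have e : orderOf (y * x * y⁻¹) = orderOf x := (MulAut.conj y).orderOf_eq x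
        have e' : (χ : G → ℂ) (y * x * y⁻¹) = (χ : G → ℂ) x := χ.2.isClassFunction x y
        by_cases hx : p ∣ orderOf x
        · exact (if_neg (not_not.2 (e ▸ hx))).trans (if_neg (not_not.2 hx)).symm
        · exact ((if_pos (show ¬ p ∣ _ from e ▸ hx)).trans e').trans (if_pos hx).symm
      · obtain ⟨c, hc⟩ := hφ C χ χ.2.isCharacter (hB χ hχ)
        exact ⟨c, fun n => (if_pos (reg C n)).trans (hc n)⟩
    | zero => exact ⟨fun _ _ => rfl, fun _ _ => rfl, fun _ => ⟨0, fun _ => (zero_mul _).symm⟩⟩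
    | add f f' _ _ h h' =>
      refine ⟨fun x y => by rw [Pi.add_apply, Pi.add_apply, h.1, h'.1],
        fun x hx => by rw [Pi.add_apply, h.2.1 x hx, h'.2.1 x hx, add_zero], fun C => ?_⟩
      obtain ⟨c, hc⟩ := h.2.2 C
      obtain ⟨c', hc'⟩ := h'.2.2 C
      exact ⟨c + c', fun n => by rw [Pi.add_apply, hc, hc', add_mul]⟩
    | smul a f _ h =>
      refine ⟨fun x y => by rw [Pi.smul_apply, Pi.smul_apply, h.1],
        fun x hx => by rw [Pi.smul_apply, h.2.1 x hx, smul_zero], fun C => ?_⟩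
      obtain ⟨c, hc⟩ := h.2.2 C
      exact ⟨a * c, fun n => by rw [Pi.smul_apply, hc, smul_eq_mul, mul_assoc]⟩
  cases nonempty_fintype R
  have h := LinearMap.finrank_le_finrank_of_injective
    (f := (LinearMap.funLeft ℂ ℂ fun C : R => (m C : G) * r C).comp (Submodule.span ℂ
      ((fun χ : IrrCharacter G => pRegularPart p (χ : G → ℂ)) '' B)).subtype)
    ((injective_iff_map_eq_zero _).2 fun f hf => Subtype.ext (funext fun x => by
      obtain ⟨k1, k2, k3⟩ := key f.1 f.2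
      by_cases hx : p ∣ orderOf x
      · exact k2 x hx
      let C : R := ⟨ConjClasses.mk (x : G ⧸ N), x, rfl,
        fun hd => hx (hd.trans (orderOf_map_dvd (QuotientGroup.mk' N) x))⟩
      obtain ⟨y, hy⟩ := isConj_iff.1 (ConjClasses.mk_eq_mk_iff_isConj.1 (hr1 C).symm)
      obtain ⟨y, rfl⟩ := QuotientGroup.mk_surjective y
      have h1 : y * x * y⁻¹ * (r C)⁻¹ ∈ N := by
        rw [← QuotientGroup.eq_one_iff, QuotientGroup.mk_mul, QuotientGroup.mk_mul,
          QuotientGroup.mk_mul, QuotientGroup.mk_inv, QuotientGroup.mk_inv, hy, mul_inv_cancel]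
      obtain ⟨c, hc⟩ := k3 C
      have h2 := hc ⟨_, h1⟩
      rw [inv_mul_cancel_right, k1] at h2
      have h3 : f.1 (m C * r C) = 0 := congrFun hf C
      rw [hc] at h3
      change f.1 x = 0
      rcases mul_eq_zero.1 h3 with h4 | h4
      · rw [h2, h4, zero_mul]
      · rw [h2, hm C h4, mul_zero]))
  rwa [Module.finrank_fintype_fun_eq_card, ← Nat.card_eq_fintype_card] at h

/-- The second half of the class count for groups with trivial `p'`-core. -/
def Cnt (p : ℕ) : Prop := ∀ (X : Type u) [Group X] [Finite X] [Nontrivial X], IsPSolvable p X →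
  pPrimeCore p X = ⊥ → ∀ r : ℕ, SectionalPRankLE p r (pCore p X) →
  Nat.card {C : ConjClasses X // ∃ g : X, ConjClasses.mk g = C ∧ ¬ p ∣ orderOf g} < p ^ r

theorem of_cnt {p : ℕ} [Fact p.Prime] (hc : Cnt.{u} p) {G : Type u} [Group G] [Finite G]
    (hsolv : IsPSolvable p G) (M : Ideal AlgInt) (hM : IsPModular p M) (B : Set (IrrCharacter G))
    (hB : IsPBlock M B) (D : Subgroup G) (hD : IsDefectGroup p M B D) (hD1 : D ≠ ⊥) (r : ℕ)
    (hr : SectionalPRankLE p r D) : blockRank p B < p ^ r := by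
  have := hM.2.1
  revert D
  refine H38.fong_induction hM (C := fun G _ => IsPSolvable p G)
    (fun G _ _ T h => H18.isPSolvable_subgroup h T)
    (fun G _ _ h => H38.isPConstrained_of_isPSolvable h)
    (motive := fun G _ B => ∀ D : Subgroup G, IsDefectGroup p M B D → D ≠ ⊥ →
      SectionalPRankLE p r D → blockRank p B < p ^ r)
    (fun G _ _ _ θ hG hθ hB D hD h1 hr => ?_) (fun G _ _ T B' B _ h ih P hP h1 hr => ?_) hsolv hB
  · have hN := H2.not_dvd_card_pPrimeCore p G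
    obtain ⟨S, rfl⟩ := H37.isSylowIn_top_iff.1 ((H38.isDefectGroup_above_iff hM hN hθ hB).1 hD)
    have hi : H32.inertia θ.1 = ⊤ := eq_top_iff.2 fun g _ => congrArg Subtype.val (hθ g)
    have hπ := QuotientGroup.mk'_surjective (pPrimeCore p G)
    have : Nontrivial (G ⧸ pPrimeCore p G) := by
      refine QuotientGroup.nontrivial_iff.2 fun e => h1 ?_
      obtain ⟨k, hk⟩ := IsPGroup.iff_card.1 S.isPGroup'
      have h2 : Nat.card (S : Subgroup G) ∣ Nat.card (pPrimeCore p G) :=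
        Subgroup.card_dvd_of_le (e ▸ le_top)
      rw [hk] at h2
      rw [← Subgroup.card_eq_one, hk]
      rcases k with _ | k
      · rfl
      · exact absurd ((dvd_pow_self p k.succ_ne_zero).trans h2) hN
    refine (rank_le (pPrimeCore p G) hN θ.2 (H32.inertia_eq_top_iff.1 hi) _ fun χ hχ => ?_).trans_lt
      (hc _ (H18.isPSolvable_of_surjective hG _ hπ) (H2.pPrimeCore_quotient_pPrimeCore p G) r ?_)
    · exact ⟨_, congrFun (H32.clifford_of_invariant χ.2 θ.2 hi (H38.mem_above_singleton.1 hχ))⟩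
    · exact H3.sectionalPRankLE_of_injective (H3.sectionalPRankLE_of_surjective hr _
        ((QuotientGroup.mk' _).subgroupMap_surjective (S : Subgroup G)))
        (Subgroup.inclusion (H2.pCore_le_sylow (S.mapSurjective hπ))) (Subgroup.inclusion_injective _)
  · obtain ⟨D, hD⟩ := H34.exists_isDefectGroup p h.ind.1
    obtain ⟨x, rfl⟩ := H36.isDefectGroup_exists_conj hM h.ind.2.1 (h.defect D hD) hP
    have e := (D.equivMapOfInjective T.subtype T.subtype_injective).trans
      ((D.map T.subtype).equivMapOfInjective (MulAut.conj x).toMonoidHom (MulAut.conj x).injective)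
    rw [(H24.KS.rank_eq_of_indBij hM h).2]
    refine ih D hD (fun e => h1 ?_) (H3.sectionalPRankLE_of_injective hr e.toMonoidHom e.injective)
    rw [e, Subgroup.map_bot, Subgroup.map_bot]

end H97.KgvL
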