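import Cfsg.Agent.H97.OrT
import Cfsg.Agent.H94.OrA
import Cfsg.Agent.H39.OrD
import Cfsg.Agent.H68.OreSp

/-! Commutators in symplectic groups over the fields with three and five elements. -/

set_option autoImplicit false
set_option linter.unusedSectionVars false

namespace H97.Or

open Module H53 H68.Ore0
open H59 (perp mem_perp)

universe u

section
variable {F : Type*} [Field F] {V : Type*} [AddCommGroup V] [Module F V] {V' : Type*}
  [AddCommGroup V'] [Module F V'] {B : V →ₗ[F] V →ₗ[F] F} {B' : V' →ₗ[F] V' →ₗ[F] F}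
  {g s : End F V} {g' s' : End F V'}

theorem Com.iso (hc : Com B g) (h : Iso (σ := RingHom.id F) B g B' g') : Com B' g' := by
  obtain ⟨e, e1, e2⟩ := h
  obtain ⟨a, b, ha, hb, hab⟩ := hc
  have : ∀ c : End F V, Inv B c → Inv B' (e.conj c) := fun c hc x y => by
    obtain ⟨x, rfl⟩ := e.surjective x
    obtain ⟨y, rfl⟩ := e.surjective y
    simp only [LinearEquiv.conj_apply_apply, e.symm_apply_apply, e2]
    exact hc x y
  refine ⟨_, _, this a ha, this b hb, LinearMap.ext fun x => ?_⟩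
  simp only [End.mul_apply, LinearEquiv.conj_apply_apply, e.symm_apply_apply, ← e1]
  exact congrArg e (LinearMap.congr_fun hab _)

theorem Com.prod (h : Com B g) (h' : Com B' g') : Com (sumForm B B') (g.prodMap g') := by
  obtain ⟨a, b, ha, hb, hab⟩ := h
  obtain ⟨a', b', ha', hb', hab'⟩ := h'
  exact ⟨_, _, ha.prodMap ha', hb.prodMap hb', by
    simp only [LinearMap.prodMap_mul, hab, hab']⟩

theorem SI.prod (h : SI B g s) (h' : SI B' g' s') :
    SI (sumForm B B') (g.prodMap g') (s.prodMap s') :=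
  ⟨fun x => Prod.ext (h.sq _) (h'.sq _), fun x y => by
    simp only [sumForm_apply, LinearMap.prodMap_apply, h.anti _ _, h'.anti _ _, neg_add],
    fun x => Prod.ext (h.inv _) (h'.inv _)⟩

theorem dbl_restrict {W : Submodule F V} {v w : V} {e : F} {k : ℕ} (h : Dbl B g W v w e k)
    (hW : ∀ x ∈ W, g x ∈ W) : ∃ v' w' : W, Dbl (B.domRestrict₁₂ W W) (g.restrict hW) ⊤ v' w' e k := by
  have hv : v ∈ W := h.eq ▸ Submodule.mem_sup_left self_mem_cy
  have hw : w ∈ W := h.eq ▸ Submodule.mem_sup_right self_mem_cy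
  refine ⟨⟨v, hv⟩, ⟨w, hw⟩, h.sq, Submodule.map_injective_of_injective W.injective_subtype ?_,
    fun x _ hx => Subtype.ext (h.nd x x.2 fun y hy => hx ⟨y, hy⟩ trivial), fun p q => ?_,
    fun x _ => ?_, ?_⟩
  · rw [Submodule.map_sup, cy_map, cy_map, Submodule.map_subtype_top]; exact h.eq
  · rw [← h.free, ← Submodule.coe_eq_zero, Submodule.coe_add, coe_aeval_restrict, coe_aeval_restrict]
  · exact (congrArg (B · x) (coe_nl_restrict hW k x)).trans (h.alt x x.2)
  · exact fun e => h.ne ((congrArg (B · w) (coe_nl_restrict hW k ⟨v, hv⟩)).symm.trans e)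

end

variable {F : Type u} [Field F] [Finite F]

theorem exists_si (hD : JobD.{u}) (h2 : (2 : F) ≠ 0) {V : Type u} [AddCommGroup V] [Module F V]
    [FiniteDimensional F V] {B : V →ₗ[F] V →ₗ[F] F} {g : End F V}
    (hB : IsSF (σ := RingHom.id F) (-1) B) (hg : Inv B g) (hn : ∀ W v w k, ¬ Dbl B g W v w 1 k) :
    ∃ s, SI B g s ∧ ∀ v, g v = v → s v = -v := by
  obtain ⟨g', h1, -, -⟩ := hg.exists_inv hB
  obtain ⟨n, W, hW, ho⟩ := dec hB hg
  have : ∀ i, ∃ a : End F V, (∀ x ∈ W i, a x ∈ W i) ∧ (∀ x ∈ W i, a (a x) = x) ∧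
      (∀ x ∈ W i, ∀ y ∈ W i, B (a x) (a y) = -1 * B x y) ∧ (∀ x ∈ W i, g (a (g x)) = a x) ∧
      ∀ x ∈ W i, g x = x → a x = -x := fun i => by
    have hi := (hW i).inv
    rcases hW i with ⟨v, f, k, P, h⟩ | ⟨v, w, e, k, h⟩
    · have nd := h.nd
      rw [h.eq] at nd ⊢
      obtain ⟨a, ha⟩ := exists_bar hB hg h1 nd self_mem_cy
      have a4 : ∀ x ∈ cy g v, g (a (g x)) = a x := fun x hx => by
        rw [semi_g₁ ha x hx, ← End.mul_apply, h1, End.one_apply]
      refine ⟨a, bar_mem h1 ha, bar_bar h1 ha, bar_form hB hg h1 ha, a4, fun x hx hf => ?_⟩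
      have a5 : g (a x + x) = a x + x := by
        have := a4 x hx
        rw [hf] at this
        rw [map_add, this, hf]
      refine eq_neg_of_add_eq_zero_left (nd _ (add_mem (bar_mem h1 ha x hx) hx) fun y hy =>
        cy_le (U := LinearMap.ker (B (a x + x))) (fun z hz => ?_) ?_ hy)
      · rw [LinearMap.mem_ker, ← a5, hg]; exact hz
      · have := bar_form hB hg h1 ha x hx v self_mem_cy
        rw [show a v = v by simpa using ha 1] at this
        rw [LinearMap.mem_ker, map_add, LinearMap.add_apply, this]; ring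
    · obtain ⟨v', w', h'⟩ := dbl_restrict h hi
      obtain ⟨⟨s, hs⟩, -⟩ := hD F _ _ _ _ _ _ _ h2 (hB.restrict (h.nd.disjoint hB)) (hg.restrict hi) h'
      obtain ⟨a, ha⟩ := LinearMap.exists_extend ((W i).subtype ∘ₗ s)
      have ha' : ∀ x (hx : x ∈ W i), a x = s ⟨x, hx⟩ := fun x hx => LinearMap.congr_fun ha ⟨x, hx⟩
      refine ⟨a, fun x hx => ha' x hx ▸ Subtype.prop _, fun x hx => ?_, fun x hx y hy => ?_,
        fun x hx => ?_, fun x hx hf => ?_⟩
      · rw [ha' x hx, ha' _ (Subtype.prop _), hs.sq]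
      · rw [ha' x hx, ha' y hy, neg_one_mul]; exact hs.anti ⟨x, hx⟩ ⟨y, hy⟩
      · rw [ha' x hx, ha' _ (hi x hx)]; exact congrArg Subtype.val (hs.inv ⟨x, hx⟩)
      · have a1 : ∀ j : ℕ, (nl g e ^ j) x = (1 - e) ^ j • x := fun j => by
          induction j with
          | zero => simp
          | succ j ih => rw [pow_succ', End.mul_apply, ih, map_smul, nl_apply, hf, pow_succ, mul_smul,
              sub_smul, one_smul]
        have a2 := h.kill x hx
        rw [a1, smul_eq_zero] at a2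
        rcases a2 with a2 | rfl
        · obtain rfl := sub_eq_zero.1 (pow_eq_zero_iff (Nat.succ_ne_zero k) |>.1 a2)
          exact absurd h (hn _ _ _ _)
        · simp
  choose a a1 a2 a3 a4 a5 using this
  obtain ⟨s, hs⟩ := ho.glue a
  have s1 : ∀ i, ∀ x ∈ W i, s x ∈ W i := fun i x hx => hs i x hx ▸ a1 i x hx
  refine ⟨s, ⟨LinearMap.congr_fun (ho.ext (s := s ∘ₗ s) (t := LinearMap.id) fun i x hx => ?_),
    fun x y => ?_, LinearMap.congr_fun (ho.ext (s := g ∘ₗ s ∘ₗ g) (t := s) fun i x hx => ?_)⟩,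
    fun v hv => ?_⟩
  · simp only [LinearMap.comp_apply, LinearMap.id_apply, hs i x hx, hs i _ (a1 i x hx), a2 i x hx]
  · rw [ho.form s1 s1 (μ := -1) fun i x hx y hy => by rw [hs i x hx, hs i y hy, a3 i x hx y hy],
      neg_one_mul]
  · simp only [LinearMap.comp_apply, hs i x hx, hs i _ ((hW i).inv x hx), a4 i x hx]
  · obtain ⟨m, hm, rfl⟩ := ho.exists_sum v
    have := ho.eq_zero (m := fun i => g (m i) - m i) (fun i => sub_mem ((hW i).inv _ (hm i)) (hm i))
      (by rw [Finset.sum_sub_distrib, ← map_sum, hv, sub_self])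
    rw [map_sum, ← Finset.sum_neg_distrib]
    exact Finset.sum_congr rfl fun i _ => by
      rw [hs i _ (hm i), a5 i _ (hm i) (sub_eq_zero.1 (this i))]

theorem com_main (hD : JobD.{u}) (hq : Nat.card F = 3 ∨ Nat.card F = 5) (n : ℕ) :
    ∀ (V : Type u) [AddCommGroup V] [Module F V] [FiniteDimensional F V] (B : V →ₗ[F] V →ₗ[F] F)
      (g : End F V), finrank F V = n → IsSF (σ := RingHom.id F) (-1) B → Inv B g →
      Nat.card F = 5 ∨ n ≠ 2 → Com B g := by
  have hc : ((Nat.card F : ℕ) : F) = 0 := by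
    cases nonempty_fintype F
    rw [Nat.card_eq_fintype_card]; exact FiniteField.cast_card_eq_zero F
  have h2 : (2 : F) ≠ 0 := fun h => by
    rcases hq with e | e <;> rw [e] at hc <;> push_cast at hc
    · exact one_ne_zero (show (1 : F) = 0 by linear_combination hc - h)
    · exact one_ne_zero (show (1 : F) = 0 by linear_combination hc - 2 * h)
  induction n using Nat.strong_induction_on with
  | _ n ih =>
  intro V _ _ _ B g hn hB hg ok
  by_cases hd : ∃ W v w k, Dbl B g W v w 1 k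
  swap
  · push Not at hd
    obtain ⟨s, hs, hf⟩ := exists_si hD h2 hB hg hd
    obtain ⟨⟨h, a1, a2⟩, a3⟩ := exists_h h2 hB hg hs hf
    by_cases e : Nat.card F = 5
    · rw [e] at hc
      exact com_of_sq hs a1 a2 (i := 2) (by push_cast at hc; linear_combination hc)
    · obtain ⟨h, b1, b2, b3⟩ := a3 fun m hm => p1_fin h2 m (.inr ⟨hq.resolve_right e, by omega⟩)
      exact com_of_unit hB hs b1 b2 b3
  obtain ⟨W, v, w, k, h⟩ := hd
  have hW : ∀ x ∈ W, g x ∈ W := Blk.inv (B := B) (.inr ⟨v, w, 1, k, h⟩)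
  have dj := h.nd.disjoint hB
  have iso := hg.iso_sumForm hB hW dj
  have hBW := hB.restrict dj
  have hBU := hB.restrict (hB.disjoint_perp dj)
  have hgW := hg.restrict hW
  have hgU := hg.restrict (hg.perp_mapsTo hB hW)
  obtain ⟨v', w', h'⟩ := dbl_restrict h hW
  obtain ⟨cW, s₁, h₁, a, b, e₁, e₂, dd⟩ := (hD F _ _ _ _ _ _ _ h2 hBW hgW h').2 rfl
  have f1 := h.finrank
  have f2 := hB.finrank_add_finrank_perp W
  by_cases ok' : Nat.card F = 5 ∨ finrank F (perp B W) ≠ 2
  · exact (cW.prod (ih _ (by omega) _ _ _ rfl hBU hgU ok')).iso iso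
  push Not at ok'
  by_cases hd : ∃ W' v w k, Dbl (B.domRestrict₁₂ (perp B W) (perp B W))
      (g.restrict (hg.perp_mapsTo hB hW)) W' v w 1 k
  · obtain ⟨W', x, y, j, h''⟩ := hd
    have f3 := h''.finrank
    have f4 := W'.finrank_le
    obtain rfl : W' = ⊤ := Submodule.eq_top_of_finrank_eq (by omega)
    exact (cW.prod ((hD F _ _ _ _ _ _ _ h2 hBU hgU h'').2 rfl).1).iso iso
  push Not at hd
  obtain ⟨s, hs, hf⟩ := exists_si hD h2 hBU hgU hd
  obtain ⟨⟨h₀, a1, a2⟩, -⟩ := exists_h h2 hBU hgU hs hf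
  by_cases hu : IsUnit (h₀ ^ 2 - 1)
  · exact (cW.prod (com_of_unit hBU hs a1 a2 hu)).iso iso
  obtain ⟨H, b1, b2, b3⟩ := H94.OrA.jobA F _ _ _ _ _ _ _ _ _ _ _ _ _ _ h2 hBU hBW ok'.2 hs hf a1 a2 hu dd
  exact (com_of_unit (hBU.sumForm hBW) (hs.prod dd.si) b1 b2 b3).iso
    ((iso_sumForm_comm _ _).trans iso)

theorem jobOdd : H68.OreSp.JobOdd.{u} := by
  intro F V _ _ _ _ _ B hB hA hq h4 g
  have hS := isSF_of_isAlt hB hA
  obtain ⟨a, b, ha, hb, hab⟩ := com_main H39.OrD.jobD hq _ V B (g.1 : End F V) rfl hS g.2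
    (.inr (by omega))
  refine ⟨H54.isomOfLin hB a ha, H54.isomOfLin hB b hb, ?_⟩
  rw [eq_mul_inv_iff_mul_eq, eq_mul_inv_iff_mul_eq, mul_assoc]
  exact H54.Isom_ext fun v => (LinearMap.congr_fun hab v).symm

end H97.Or
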