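import Cfsg.Agent.Base
import Mathlib.LinearAlgebra.Matrix.SchurComplement
import Mathlib.LinearAlgebra.Matrix.Symmetric
import Mathlib.Algebra.Polynomial.Roots
import Mathlib.FieldTheory.Finite.Basic
import Mathlib.Tactic.ComputeDegree
import Mathlib.Algebra.CharP.CharAndCard

/-! For symmetric `A` and diagonal `D` there is an invertible `Φ` with
`A + Φᵀ D Φ ± (Φ + Φᵀ)` invertible. -/

set_option autoImplicit false

namespace H97.Or

open Matrix

variable {F : Type*} [Field F] {ι κ : Type*} [Fintype ι] [DecidableEq ι] [Fintype κ] [DecidableEq κ]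

/-- `Φᵀ D Φ + e (Φ + Φᵀ)` -/
def Nn (d : ι → F) (Φ : Matrix ι ι F) (e : F) : Matrix ι ι F :=
  Φᵀ * diagonal d * Φ + e • (Φ + Φᵀ)

/-- the statement with two symmetric matrices -/
def PS (F ι : Type*) [Field F] [Fintype ι] [DecidableEq ι] : Prop :=
  ∀ (d : ι → F) (A A' : Matrix ι ι F), A.IsSymm → A'.IsSymm →
    ∃ Φ : Matrix ι ι F, Φ.det ≠ 0 ∧ (A + Nn d Φ 1).det ≠ 0 ∧ (A' + Nn d Φ (-1)).det ≠ 0

/-- the statement with one symmetric matrix -/
def P1 (F ι : Type*) [Field F] [Fintype ι] [DecidableEq ι] : Prop :=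
  ∀ (d : ι → F) (A : Matrix ι ι F), A.IsSymm →
    ∃ Φ : Matrix ι ι F, Φ.det ≠ 0 ∧ (A + Nn d Φ 1).det ≠ 0 ∧ (A + Nn d Φ (-1)).det ≠ 0

theorem PS.p1 (h : PS F ι) : P1 F ι := fun d A hA => h d A A hA hA

theorem isSymm_Nn (d : ι → F) (Φ : Matrix ι ι F) (e : F) : (Nn d Φ e).IsSymm := by
  simp [Nn, IsSymm, Matrix.mul_assoc, add_comm]

theorem Nn_blocks (d : ι ⊕ κ → F) (Φ : Matrix ι ι F) (Ψ : Matrix κ κ F) (e : F) :
    Nn d (fromBlocks Φ 0 0 Ψ) e =
      fromBlocks (Nn (d ∘ Sum.inl) Φ e) 0 0 (Nn (d ∘ Sum.inr) Ψ e) := by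
  have : diagonal d = fromBlocks (diagonal (d ∘ Sum.inl)) 0 0 (diagonal (d ∘ Sum.inr)) := by
    rw [fromBlocks_diagonal]; congr 1; ext (i | i) <;> rfl
  rw [Nn, this, fromBlocks_transpose, fromBlocks_multiply, fromBlocks_multiply]
  simp [Nn, fromBlocks_add, fromBlocks_smul]

theorem det_blocks {E : Matrix ι ι F} (hE : E.det ≠ 0) (B : Matrix ι κ F) (C N : Matrix κ κ F)
    (h : (C - Bᵀ * E⁻¹ * B + N).det ≠ 0) : (fromBlocks E B Bᵀ (C + N)).det ≠ 0 := by
  let _ := invertibleOfIsUnitDet E hE.isUnit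
  rw [det_fromBlocks₁₁, invOf_eq_nonsing_inv, add_sub_right_comm]
  exact mul_ne_zero hE h

theorem P1.sum (h : P1 F ι) (h' : PS F κ) : P1 F (ι ⊕ κ) := by
  intro d A hA
  rw [← fromBlocks_toBlocks A] at hA ⊢
  obtain ⟨h1, h2, -, h4⟩ := isSymm_fromBlocks_iff.1 hA
  rw [← h2]
  generalize A.toBlocks₁₁ = A₁ at *
  generalize A.toBlocks₂₂ = A₂ at *
  generalize A.toBlocks₁₂ = B at *
  obtain ⟨Φ, a1, a2, a3⟩ := h (d ∘ Sum.inl) A₁ h1
  have sy : ∀ e, (A₂ - Bᵀ * (A₁ + Nn (d ∘ Sum.inl) Φ e)⁻¹ * B).IsSymm := fun e => by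
    rw [IsSymm, transpose_sub, transpose_mul, transpose_mul, transpose_nonsing_inv,
      (h1.add (isSymm_Nn _ _ _)).eq, h4.eq, transpose_transpose, Matrix.mul_assoc]
  obtain ⟨Ψ, b1, b2, b3⟩ := h' (d ∘ Sum.inr) _ _ (sy 1) (sy (-1))
  refine ⟨fromBlocks Φ 0 0 Ψ, by rw [det_fromBlocks_zero₂₁]; exact mul_ne_zero a1 b1, ?_, ?_⟩
  · rw [Nn_blocks, fromBlocks_add, add_zero, add_zero]; exact det_blocks a2 _ _ _ b2
  · rw [Nn_blocks, fromBlocks_add, add_zero, add_zero]; exact det_blocks a3 _ _ _ b3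

theorem P1.equiv (h : P1 F ι) (e : ι ≃ κ) : P1 F κ := by
  intro d A hA
  obtain ⟨Φ, a1, a2, a3⟩ := h (d ∘ e) (A.submatrix e e) (hA.submatrix e)
  have : ∀ c, A + Nn d (Φ.submatrix e.symm e.symm) c =
      (A.submatrix e e + Nn (d ∘ e) Φ c).submatrix e.symm e.symm := fun c => by
    simp [Nn, submatrix_add, submatrix_smul, ← submatrix_mul_equiv _ _ _ e.symm,
      Function.comp_def]
    rfl
  exact ⟨Φ.submatrix e.symm e.symm, by simpa, by simpa [this] using a2, by simpa [this] using a3⟩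

theorem p1_zero : P1 F (Fin 0) := fun _ _ _ => ⟨1, by simp, by simp, by simp⟩

open Polynomial in
theorem ps_one [Finite F] (h2 : (2 : F) ≠ 0) (h : 6 ≤ Nat.card F) : PS F (Fin 1) := by
  intro d A A' _ _
  have hq : ∀ a c : F, c ≠ 0 → (C (d 0) * X ^ 2 + C c * X + C a : F[X]) ≠ 0 := fun a c hc e => by
    have := congrArg (coeff · 1) e
    simp [hc] at this
  obtain ⟨x, hx⟩ := exists_eval_ne_zero_of_natDegree_lt_card (X * ((C (d 0) * X ^ 2 + C 2 * X +
      C (A 0 0)) * (C (d 0) * X ^ 2 + C (-2) * X + C (A' 0 0))) : F[X])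
    (mul_ne_zero X_ne_zero (mul_ne_zero (hq _ _ h2) (hq _ _ (neg_ne_zero.2 h2)))) (by
      rw [← Nat.cast_card, Nat.cast_lt]
      refine lt_of_le_of_lt (?_ : _ ≤ 5) h
      compute_degree)
  simp only [eval_mul, eval_add, eval_pow, eval_C, eval_X, ne_eq, mul_eq_zero, not_or] at hx
  refine ⟨!![x], by simpa using hx.1, fun e => hx.2.1 ?_, fun e => hx.2.2 ?_⟩ <;>
    simp [Nn, Matrix.mul_apply] at e <;> linear_combination e

section three

def T3 : List ℕ := [0, 1, 2]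

def L2 : List (List ℕ) := [[0, 1, 1, 0], [0, 1, 2, 0], [0, 2, 2, 0], [1, 0, 0, 1], [2, 0, 0, 2],
  [0, 1, 1, 1], [0, 1, 2, 1], [1, 0, 1, 1], [1, 0, 1, 2], [0, 2, 1, 1]]

def L3 : List (List ℕ) := [[0, 1, 0, 1, 1, 0, 1, 0, 2], [2, 2, 0, 0, 2, 2, 2, 2, 2],
  [1, 1, 0, 2, 1, 0, 2, 2, 2], [0, 0, 2, 0, 1, 1, 1, 2, 2], [1, 1, 0, 0, 2, 2, 0, 1, 0],
  [0, 1, 1, 2, 2, 1, 2, 2, 0], [2, 0, 2, 1, 1, 1, 1, 2, 2], [2, 1, 2, 2, 0, 2, 0, 0, 1],
  [2, 0, 1, 0, 2, 0, 0, 1, 1], [2, 1, 1, 1, 0, 2, 0, 1, 2], [2, 0, 0, 1, 1, 0, 1, 0, 1],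
  [2, 1, 1, 1, 2, 0, 0, 1, 1]]

def v2 (x y a b c ε p q r s : ℕ) : ℕ :=
  (a + (x * p * p + y * r * r) + ε * (p + p)) * (c + (x * q * q + y * s * s) + ε * (s + s)) +
    2 * (b + (x * p * q + y * r * s) + ε * (q + r)) ^ 2

def ck2 (x y a b c a' b' c' : ℕ) : List ℕ → Bool
  | [p, q, r, s] => (p * s + 2 * q * r) % 3 != 0 && v2 x y a b c 1 p q r s % 3 != 0 &&
      v2 x y a' b' c' 2 p q r s % 3 != 0
  | _ => false

def sd (a b c d e f : ℕ) : ℕ := a * d * f + 2 * b * e * c + 2 * (a * e * e + b * b * f + c * c * d)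

def v3 (x y z a b c d e f ε p q r s t u v w k : ℕ) : ℕ :=
  sd (a + (x * p * p + y * s * s + z * v * v) + ε * (p + p))
    (b + (x * p * q + y * s * t + z * v * w) + ε * (q + s))
    (c + (x * p * r + y * s * u + z * v * k) + ε * (r + v))
    (d + (x * q * q + y * t * t + z * w * w) + ε * (t + t))
    (e + (x * q * r + y * t * u + z * w * k) + ε * (u + w))
    (f + (x * r * r + y * u * u + z * k * k) + ε * (k + k))

def ck3 (x y z a b c d e f : ℕ) : List ℕ → Bool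
  | [p, q, r, s, t, u, v, w, k] => v3 x y z a b c d e f 1 p q r s t u v w k % 3 != 0 &&
      v3 x y z a b c d e f 2 p q r s t u v w k % 3 != 0 &&
      (p * t * k + q * u * v + r * s * w + 2 * (p * u * w + q * s * k + r * t * v)) % 3 != 0
  | _ => false

theorem chk2 : (T3.all fun x => T3.all fun y => T3.all fun a => T3.all fun b => T3.all fun c =>
    T3.all fun a' => T3.all fun b' => T3.all fun c' => L2.any (ck2 x y a b c a' b' c')) = true := by
  decide +kernel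

theorem chk3 : (T3.all fun x => T3.all fun y => T3.all fun z => T3.all fun a => T3.all fun b =>
    T3.all fun c => T3.all fun d => T3.all fun e => T3.all fun f =>
      L3.any (ck3 x y z a b c d e f)) = true := by
  decide +kernel

variable [Finite F] (h : Nat.card F = 3)
include h

theorem charP_three : CharP F 3 := by
  have := Fintype.ofFinite F
  exact charP_of_card_eq_prime (p := 3) (hp := ⟨Nat.prime_three⟩) (by rw [← Nat.card_eq_fintype_card, h])

theorem three_eq_zero : (3 : F) = 0 := by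
  have := charP_three h
  exact_mod_cast CharP.cast_eq_zero F 3

theorem cases_three (x : F) : x = 0 ∨ x = 1 ∨ x = -1 := by
  have := Fintype.ofFinite F
  have h1 := FiniteField.pow_card x
  rw [← Nat.card_eq_fintype_card, h] at h1
  have h2 : x * ((x - 1) * (x + 1)) = 0 := by linear_combination h1
  simpa [sub_eq_zero, add_eq_zero_iff_eq_neg] using h2

theorem exists_T3 (x : F) : ∃ n ∈ T3, x = n := by
  rcases cases_three h x with rfl | rfl | rfl
  · exact ⟨0, by decide, by simp⟩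
  · exact ⟨1, by decide, by simp⟩
  · exact ⟨2, by decide, by push_cast; linear_combination -three_eq_zero h⟩

theorem cast_ne {n : ℕ} (hn : (n % 3 != 0) = true) {x : F} (e : x = n) : x ≠ 0 := by
  have := charP_three h
  rw [e, Ne, CharP.cast_eq_zero_iff F 3]
  simpa [Nat.dvd_iff_mod_eq_zero] using hn

theorem ps_two : PS F (Fin 2) := by
  intro d A A' hA hA'
  have h3 := three_eq_zero h
  obtain ⟨x, hx, ex⟩ := exists_T3 h (d 0)
  obtain ⟨y, hy, ey⟩ := exists_T3 h (d 1)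
  obtain ⟨a, ha, ea⟩ := exists_T3 h (A 0 0)
  obtain ⟨b, hb, eb⟩ := exists_T3 h (A 0 1)
  obtain ⟨c, hc, ec⟩ := exists_T3 h (A 1 1)
  obtain ⟨a', ha', ea'⟩ := exists_T3 h (A' 0 0)
  obtain ⟨b', hb', eb'⟩ := exists_T3 h (A' 0 1)
  obtain ⟨c', hc', ec'⟩ := exists_T3 h (A' 1 1)
  have h1 := chk2
  simp only [List.all_eq_true, List.any_eq_true] at h1
  obtain ⟨l, -, hl⟩ := h1 x hx y hy a ha b hb c hc a' ha' b' hb' c' hc'
  unfold ck2 at hl
  split at hl
  swap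
  · cases hl
  rename_i p q r s
  rw [Bool.and_eq_true, Bool.and_eq_true] at hl
  have key : ∀ (M : Matrix (Fin 2) (Fin 2) F) (e : F) (a b c ε : ℕ), M.IsSymm → M 0 0 = a →
      M 0 1 = b → M 1 1 = c → e = ε →
      (M + Nn d !![(p : F), q; r, s] e).det = v2 x y a b c ε p q r s := by
    intro M e a b c ε hM e1 e2 e3 e4
    simp [det_fin_two, Nn, Matrix.mul_apply, Fin.sum_univ_two, diagonal_apply, v2, e1, e2, e3, e4,
      ex, ey, hM.apply 0 1]
    linear_combination (-((b : F) + (x * p * q + y * r * s) + ε * (q + r)) ^ 2) * h3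
  refine ⟨!![(p : F), q; r, s], cast_ne h hl.1.1 ?_, cast_ne h hl.1.2
    (key A 1 a b c 1 hA ea eb ec (by simp)), cast_ne h hl.2
    (key A' (-1) a' b' c' 2 hA' ea' eb' ec' (by push_cast; linear_combination -h3))⟩
  simp [det_fin_two]
  linear_combination (-(q : F) * r) * h3

theorem p1_three : P1 F (Fin 3) := by
  intro D A hA
  have h3 := three_eq_zero h
  obtain ⟨x, hx, ex⟩ := exists_T3 h (D 0)
  obtain ⟨y, hy, ey⟩ := exists_T3 h (D 1)
  obtain ⟨z, hz, ez⟩ := exists_T3 h (D 2)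
  obtain ⟨a, ha, ea⟩ := exists_T3 h (A 0 0)
  obtain ⟨b, hb, eb⟩ := exists_T3 h (A 0 1)
  obtain ⟨c, hc, ec⟩ := exists_T3 h (A 0 2)
  obtain ⟨d, hd, ed⟩ := exists_T3 h (A 1 1)
  obtain ⟨e, he, ee⟩ := exists_T3 h (A 1 2)
  obtain ⟨f, hf, ef⟩ := exists_T3 h (A 2 2)
  have h1 := chk3
  simp only [List.all_eq_true, List.any_eq_true] at h1
  obtain ⟨l, -, hl⟩ := h1 x hx y hy z hz a ha b hb c hc d hd e he f hf
  unfold ck3 at hl
  split at hl
  swap
  · cases hl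
  rename_i p q r s t u v w k
  rw [Bool.and_eq_true, Bool.and_eq_true] at hl
  have sdet : ∀ (M : Matrix (Fin 3) (Fin 3) F) (a b c d e f : ℕ), M.IsSymm → M 0 0 = a → M 0 1 = b →
      M 0 2 = c → M 1 1 = d → M 1 2 = e → M 2 2 = f → M.det = sd a b c d e f := by
    intro M a b c d e f hM e1 e2 e3 e4 e5 e6
    simp only [det_fin_three, hM.apply 0 1, hM.apply 0 2, hM.apply 1 2, e1, e2, e3, e4, e5, e6, sd]
    push_cast
    linear_combination (-((a : F) * e * e + b * b * f + c * c * d)) * h3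
  have key : ∀ (η : F) (ε : ℕ), η = ε → (A + Nn D !![(p : F), q, r; s, t, u; v, w, k] η).det =
      v3 x y z a b c d e f ε p q r s t u v w k := by
    intro η ε e0
    refine sdet _ _ _ _ _ _ _ (hA.add (isSymm_Nn _ _ _)) ?_ ?_ ?_ ?_ ?_ ?_ <;>
      simp [Nn, Matrix.mul_apply, Fin.sum_univ_three, diagonal_apply, e0, ex, ey, ez, ea, eb, ec, ed,
        ee, ef] <;> ring
  refine ⟨!![(p : F), q, r; s, t, u; v, w, k], cast_ne h hl.2 ?_, cast_ne h hl.1.1
    (key 1 1 (by simp)), cast_ne h hl.1.2 (key (-1) 2 (by push_cast; linear_combination -h3))⟩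
  simp [det_fin_three]
  linear_combination (-((p : F) * u * w + q * s * k + r * t * v)) * h3

end three

theorem p1_fin [Finite F] (h2 : (2 : F) ≠ 0) :
    ∀ n : ℕ, 6 ≤ Nat.card F ∨ Nat.card F = 3 ∧ n ≠ 1 → P1 F (Fin n)
  | 0, _ => p1_zero
  | 1, h => (ps_one h2 (h.resolve_right fun h => h.2 rfl)).p1
  | 2, h => h.elim (fun h => ((ps_one h2 h).p1.sum (ps_one h2 h)).equiv finSumFinEquiv)
      fun h => (ps_two h.1).p1
  | 3, h => h.elim (fun h => ((p1_fin h2 2 (.inl h)).sum (ps_one h2 h)).equiv finSumFinEquiv)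
      fun h => p1_three h.1
  | n + 4, h => h.elim
      (fun h => ((p1_fin h2 (n + 3) (.inl h)).sum (ps_one h2 h)).equiv finSumFinEquiv)
      fun h => ((p1_fin h2 (n + 2) (.inr ⟨h.1, by omega⟩)).sum (ps_two h.1)).equiv finSumFinEquiv

end H97.Or
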