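import Cfsg.Agent.H68.Ore0

/-! Commutators in symplectic groups of odd characteristic: interface. -/

set_option autoImplicit false

namespace H97.Or

open Module H53 H68.Ore0

universe u

variable {F : Type*} [Field F] {V : Type*} [AddCommGroup V] [Module F V]

/-- `s` has multiplier `-1` -/
def Anti (B : V →ₗ[F] V →ₗ[F] F) (s : End F V) : Prop := ∀ x y, B (s x) (s y) = -B x y

/-- `s` is an involution of multiplier `-1` inverting `g` -/
structure SI (B : V →ₗ[F] V →ₗ[F] F) (g s : End F V) : Prop where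
  sq : ∀ x, s (s x) = x
  anti : Anti B s
  inv : ∀ x, g (s (g x)) = s x

/-- `g` is a commutator of isometries -/
def Com (B : V →ₗ[F] V →ₗ[F] F) (g : End F V) : Prop :=
  ∃ a b : End F V, Inv B a ∧ Inv B b ∧ a * b = g * (b * a)

/-- what a double block for the eigenvalue `1` offers -/
structure DD (B : V →ₗ[F] V →ₗ[F] F) (g s h : End F V) (a b e₁ e₂ : V) : Prop where
  si : SI B g s
  inv : Inv B h
  cj : ∀ x, h (s x) = s (g (h x))
  neg : ∀ x, h x = -x → x = 0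
  fix : ∀ x, h x = x → ∃ α β : F, x = α • e₁ + β • e₂
  h₁ : h e₁ = e₁
  h₂ : h e₂ = e₂
  s₁ : s e₁ = e₁
  s₂ : s e₂ = -e₂
  sa : s a = a
  sb : s b = -b
  n₁ : B e₁ b ≠ 0
  n₂ : B e₂ a ≠ 0
  alt : (B a b = 0 ∧ ∀ z, h z + z = h b → B z b ≠ 0) ∨ (h = 1 ∧ B a b ≠ 0)

/-- double blocks -/
def JobD : Prop := ∀ (F V : Type u) [Field F] [Finite F] [AddCommGroup V] [Module F V]
  [FiniteDimensional F V] (B : V →ₗ[F] V →ₗ[F] F) (g : End F V) (v w : V) (e : F) (k : ℕ),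
  (2 : F) ≠ 0 → IsSF (σ := RingHom.id F) (-1) B → Inv B g → Dbl B g ⊤ v w e k →
  (∃ s, SI B g s) ∧ (e = 1 → Com B g ∧ ∃ s h a b e₁ e₂, DD B g s h a b e₁ e₂)

end H97.Or
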