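import Cfsg.Agent.H97.OrSpec

/-! Commutators in symplectic groups of odd characteristic: attaching a plane to a double block. -/

set_option autoImplicit false

namespace H97.Or

open Module H53

universe u

/-- a plane next to a double block for the eigenvalue `1` -/
def JobA : Prop := ∀ (F V W : Type u) [Field F] [AddCommGroup V] [Module F V]
  [FiniteDimensional F V] [AddCommGroup W] [Module F W] [FiniteDimensional F W]
  (B₀ : V →ₗ[F] V →ₗ[F] F) (B₁ : W →ₗ[F] W →ₗ[F] F) (g₀ s₀ h₀ : End F V) (g₁ s₁ h₁ : End F W)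
  (a b e₁ e₂ : W), (2 : F) ≠ 0 → IsSF (σ := RingHom.id F) (-1) B₀ →
  IsSF (σ := RingHom.id F) (-1) B₁ → finrank F V = 2 → SI B₀ g₀ s₀ →
  (∀ v, g₀ v = v → s₀ v = -v) → Inv B₀ h₀ → (∀ x, h₀ (s₀ x) = s₀ (g₀ (h₀ x))) →
  ¬ IsUnit (h₀ ^ 2 - 1) → DD B₁ g₁ s₁ h₁ a b e₁ e₂ →
  ∃ h : End F (V × W), Inv (sumForm B₀ B₁) h ∧
    (∀ x, h (s₀.prodMap s₁ x) = s₀.prodMap s₁ (g₀.prodMap g₁ (h x))) ∧ IsUnit (h ^ 2 - 1)

end H97.Or
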