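import Cfsg.Agent.H97.OrSpec
import Cfsg.Agent.H97.OrP

/-! Two involutions of multiplier `-1` without common fixed vectors are conjugate by an isometry
without the eigenvalues `±1`. -/

set_option autoImplicit false
set_option linter.unusedSectionVars false

namespace H97.Or

open Module H53 Matrix
open H59 (perp mem_perp)

variable {F : Type*} [Field F] {V : Type*} [AddCommGroup V] [Module F V]
  {B : V →ₗ[F] V →ₗ[F] F} {s t g h : End F V}

theorem skew (hB : IsSF (σ := RingHom.id F) (-1) B) (x y : V) : B y x = -B x y := by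
  simpa using hB.symm x y

theorem Anti.adj (hs : Anti B s) (h2 : ∀ x, s (s x) = x) (x y : V) : B (s x) y = -B x (s y) := by
  rw [← hs x (s y), h2]

theorem Anti.iso (h2 : (2 : F) ≠ 0) (hs : Anti B s) {x y : V} (hx : s x = x) (hy : s y = y) :
    B x y = 0 := by
  have := hs x y
  rw [hx, hy] at this
  exact (mul_eq_zero.1 (show 2 * B x y = 0 by linear_combination this)).resolve_left h2

theorem perp_fix (h2 : (2 : F) ≠ 0) (hB : IsSF (σ := RingHom.id F) (-1) B) (hs : Anti B s)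
    (hs2 : ∀ x, s (s x) = x) : perp B (LinearMap.eqLocus s 1) = LinearMap.eqLocus s 1 := by
  ext y
  refine ⟨fun hy => ?_, fun hy x hx => hs.iso h2 hx hy⟩
  refine hB.ext_right fun z => ?_
  have := hy (z + s z) (by simp [LinearMap.mem_eqLocus, hs2, add_comm])
  rw [map_add, LinearMap.add_apply, hs.adj hs2] at this
  simpa using (add_neg_eq_zero.1 this).symm

variable [FiniteDimensional F V]

theorem exists_frame (h2 : (2 : F) ≠ 0) (hB : IsSF (σ := RingHom.id F) (-1) B) (hs : Anti B s)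
    (hs2 : ∀ x, s (s x) = x) (ht : Anti B t) (ht2 : ∀ x, t (t x) = x)
    (hd : ∀ x, s x = x → t x = x → x = 0) :
    ∃ (m : ℕ) (φ : ((Fin m → F) × (Fin m → F)) ≃ₗ[F] V) (d : Fin m → F)
      (A : Matrix (Fin m) (Fin m) F), A.IsSymm ∧
      (∀ u u', B (φ u) (φ u') = u.1 ⬝ᵥ u'.2 - u.2 ⬝ᵥ u'.1) ∧
      (∀ u, s (φ u) = φ (u.1 - (2 : F) • diagonal d *ᵥ u.2, -u.2)) ∧
      ∀ u, t (φ u) = φ (-u.1, u.2 - (2 : F) • A *ᵥ u.1) := by
  let _ := invertibleOfNonzero h2
  have hL := hB.finrank_add_finrank_perp (LinearMap.eqLocus s 1)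
  have hM := hB.finrank_add_finrank_perp (LinearMap.eqLocus t 1)
  rw [perp_fix h2 hB hs hs2] at hL
  rw [perp_fix h2 hB ht ht2] at hM
  set L := LinearMap.eqLocus s 1
  set M := LinearMap.eqLocus t 1
  have top : L ⊔ M = ⊤ := Submodule.eq_top_of_disjoint _ _ (by omega)
    (Submodule.disjoint_def.2 fun x a b => hd x a b)
  obtain ⟨f, hf⟩ := LinearMap.BilinForm.exists_orthogonal_basis
    (B := (B ∘ₗ s).domRestrict₁₂ M M) ⟨fun x y => by
      simp only [RingHom.id_apply, LinearMap.domRestrict₁₂_apply, LinearMap.comp_apply]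
      rw [hs.adj hs2, ← skew hB]⟩
  generalize hm : finrank F M = m at f hf
  have tf : ∀ j, t (f j) = f j := fun j => (f j).2
  have : ∀ i, ∃ e, s e = e ∧ ∀ j, B e (f j) = if i = j then 1 else 0 := fun i => by
    obtain ⟨l, hl⟩ := LinearMap.exists_extend (f.coord i)
    obtain ⟨z, rfl⟩ := hB.surjective l
    obtain ⟨a, ha, b, hb, rfl⟩ := Submodule.mem_sup.1 (top ▸ Submodule.mem_top (x := z))
    refine ⟨a, ha, fun j => ?_⟩
    have := LinearMap.congr_fun hl (f j)
    simp only [LinearMap.comp_apply, Submodule.subtype_apply, map_add, LinearMap.add_apply,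
      ht.iso h2 hb (tf j), add_zero] at this
    rw [this]; simp [Finsupp.single_apply, eq_comm]
  choose e se ef using this
  have fe : ∀ i j, B (f i) (e j) = if j = i then -1 else 0 := fun i j => by
    rw [skew hB, ef]; split_ifs <;> simp
  have ee : ∀ i j, B (e i) (e j) = 0 := fun i j => hs.iso h2 (se i) (se j)
  have ff : ∀ i j, B (f i) (f j) = 0 := fun i j => ht.iso h2 (tf i) (tf j)
  let ψ : ((Fin m → F) × (Fin m → F)) →ₗ[F] V :=
    (Fintype.linearCombination F e).coprod (Fintype.linearCombination F fun j => (f j : V))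
  have ψa : ∀ u, ψ u = ∑ i, u.1 i • e i + ∑ i, u.2 i • (f i : V) := fun u => by
    simp [ψ, Fintype.linearCombination_apply]
  have c1 : ∀ u i, B (ψ u) (f i) = u.1 i := fun u i => by simp [ψa, ef, ff]
  have c2 : ∀ u i, B (e i) (ψ u) = u.2 i := fun u i => by simp [ψa, ef, ee]
  have inj : Function.Injective ψ := fun u u' huu =>
    Prod.ext (funext fun i => by rw [← c1, huu, c1]) (funext fun i => by rw [← c2, huu, c2])
  have sur := (LinearMap.injective_iff_surjective_of_finrank_eq_finrank (by simp; omega)).1 inj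
  have ex : ∀ v u, (∀ i, B v (f i) = u.1 i) → (∀ i, B (e i) v = u.2 i) → v = ψ u :=
    fun v u a b => by
      obtain ⟨u', rfl⟩ := sur v
      exact congrArg ψ (Prod.ext (funext fun i => by rw [← c1, a]) (funext fun i => by rw [← c2, b]))
  have sf : ∀ i j, B (s (f j)) (f i) = if j = i then B (s (f i)) (f i) else 0 := fun i j => by
    split_ifs with h
    · rw [h]
    · exact hf h
  refine ⟨m, LinearEquiv.ofBijective ψ ⟨inj, sur⟩, fun i => -(2⁻¹ * B (s (f i)) (f i)),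
    of fun i k => -(2⁻¹ * B (e i) (t (e k))), ?_, fun u u' => ?_, fun u => ex _ _ (fun i => ?_) fun i => ?_,
    fun u => ex _ _ (fun i => ?_) fun i => ?_⟩
  · ext i k
    rw [transpose_apply, of_apply, of_apply, skew hB (t (e i)), ht.adj ht2, neg_neg]
  · show B (ψ u) (ψ u') = _
    rw [ψa u', map_add, map_sum, map_sum]
    simp only [map_smul, c1, skew hB (e _), c2, dotProduct, smul_eq_mul]
    simp only [mul_neg, Finset.sum_neg_distrib, mul_comm]
    ring
  · show B (s (ψ u)) _ = _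
    rw [ψa]
    simp only [map_add, map_sum, map_smul, se, LinearMap.add_apply, LinearMap.sum_apply,
      LinearMap.smul_apply, ef, smul_eq_mul]
    rw [Finset.sum_congr rfl fun j _ => congrArg (u.2 j * ·) (sf i j)]
    simp [mulVec_diagonal]
    field_simp
  · show B _ (s (ψ u)) = _
    rw [← se i, hs, c2]; rfl
  · show B (t (ψ u)) _ = _
    rw [← tf i, ht, c1]; rfl
  · show B _ (t (ψ u)) = _
    rw [ψa]
    simp only [map_add, map_sum, map_smul, tf, ef, smul_eq_mul]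
    simp [mulVec, dotProduct, Finset.mul_sum, ← mul_assoc, h2, mul_comm, add_comm]

/-- the conjugating isometry attached to an invertible matrix -/
theorem exists_conj {m : ℕ} (φ : ((Fin m → F) × (Fin m → F)) ≃ₗ[F] V) {d : Fin m → F}
    {A : Matrix (Fin m) (Fin m) F} (hA : A.IsSymm)
    (hb : ∀ u u', B (φ u) (φ u') = u.1 ⬝ᵥ u'.2 - u.2 ⬝ᵥ u'.1)
    (hs : ∀ u, s (φ u) = φ (u.1 - (2 : F) • diagonal d *ᵥ u.2, -u.2))
    (ht : ∀ u, t (φ u) = φ (-u.1, u.2 - (2 : F) • A *ᵥ u.1)) {Φ : Matrix (Fin m) (Fin m) F}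
    (hΦ : Φ.det ≠ 0) : ∃ h : End F V, Inv B h ∧ (∀ x, h (s x) = t (h x)) ∧
      ∀ e : F, e * e = 1 → (A + Nn d Φ e).det ≠ 0 → ∀ x, h x = e • x → x = 0 := by
  have i1 : ∀ y, Φ *ᵥ (Φ⁻¹ *ᵥ y) = y := fun y => by
    rw [mulVec_mulVec, mul_nonsing_inv _ hΦ.isUnit, one_mulVec]
  have i2 : ∀ y w, (Φ⁻¹ *ᵥ y) ⬝ᵥ (Φᵀ *ᵥ w) = y ⬝ᵥ w := fun y w => by
    rw [dotProduct_mulVec, vecMul_transpose, i1]
  have sy : ∀ C : Matrix (Fin m) (Fin m) F, C.IsSymm → ∀ y w, (C *ᵥ y) ⬝ᵥ w = y ⬝ᵥ (C *ᵥ w) :=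
    fun C hC y w => by rw [dotProduct_mulVec, ← vecMul_transpose, hC.eq]
  let k : End F ((Fin m → F) × (Fin m → F)) :=
    ((-Φ⁻¹).mulVecLin ∘ₗ LinearMap.snd F _ _).prod
      (Φᵀ.mulVecLin.coprod (-(Φᵀ.mulVecLin ∘ₗ (diagonal d).mulVecLin + A.mulVecLin ∘ₗ Φ⁻¹.mulVecLin)))
  have ka : ∀ u, φ.conj k (φ u) =
      φ (-(Φ⁻¹ *ᵥ u.2), Φᵀ *ᵥ (u.1 - diagonal d *ᵥ u.2) - A *ᵥ (Φ⁻¹ *ᵥ u.2)) := fun u => by
    rw [LinearEquiv.conj_apply_apply, φ.symm_apply_apply]
    congr 1
    refine Prod.ext (neg_mulVec u.2 Φ⁻¹) ?_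
    show Φᵀ *ᵥ u.1 + -(Φᵀ *ᵥ (diagonal d *ᵥ u.2) + A *ᵥ (Φ⁻¹ *ᵥ u.2)) = _
    rw [mulVec_sub]; abel
  refine ⟨φ.conj k, fun x y => ?_, fun x => ?_, fun e he hd x hx => ?_⟩
  · obtain ⟨u, rfl⟩ := φ.surjective x
    obtain ⟨u', rfl⟩ := φ.surjective y
    rw [ka, ka, hb, hb]
    simp only [neg_dotProduct, dotProduct_neg, dotProduct_sub, sub_dotProduct, i2,
      dotProduct_comm (Φᵀ *ᵥ _), sy A hA]
    rw [dotProduct_comm u'.2 u.1, dotProduct_comm u'.2 (_ *ᵥ _), sy _ (isSymm_diagonal d)]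
    ring
  · obtain ⟨u, rfl⟩ := φ.surjective x
    rw [hs, ka, ka, ht]
    congr 1
    refine Prod.ext (by simp only [mulVec_neg]) ?_
    simp only [mulVec_neg, mulVec_sub, mulVec_add, two_smul]
    abel
  · obtain ⟨u, rfl⟩ := φ.surjective x
    rw [ka, ← map_smul] at hx
    obtain ⟨a1, a2⟩ := Prod.ext_iff.1 (φ.injective hx)
    simp only [Prod.smul_fst, Prod.smul_snd] at a1 a2
    have a3 : Φ⁻¹ *ᵥ u.2 = -(e • u.1) := by rw [← a1, neg_neg]
    have a4 : u.2 = -(e • Φ *ᵥ u.1) := by rw [← i1 u.2, a3, mulVec_neg, mulVec_smul]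
    have a5 : (A + Nn d Φ e) *ᵥ u.1 = 0 := by
      rw [a3, a4] at a2
      simp only [Nn, add_mulVec, smul_mulVec, ← mulVec_mulVec, mulVec_neg, mulVec_sub, mulVec_smul,
        smul_neg, smul_smul, he, one_smul, smul_add] at a2 ⊢
      linear_combination (norm := skip) e • a2
      match_scalars <;> first | ring1 | linear_combination -he
    have a6 := eq_zero_of_mulVec_eq_zero hd a5
    rw [a6] at a4
    have : u = 0 := Prod.ext a6 (by simpa using a4)
    rw [this, map_zero]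

omit [FiniteDimensional F V] in
theorem SI.anti' (hs : SI B g s) (hg : Inv B g) : Anti B (s * g) := fun x y => by
  rw [End.mul_apply, End.mul_apply, hs.anti, hg]

theorem isUnit_of (h1 : ∀ x, h x = x → x = 0) (h2 : ∀ x, h x = -x → x = 0) : IsUnit (h ^ 2 - 1) := by
  rw [LinearMap.isUnit_iff_ker_eq_bot, LinearMap.ker_eq_bot']
  intro x hx
  refine h2 x (eq_neg_of_add_eq_zero_left (h1 _ ?_))
  rw [map_add, ← sub_eq_zero, ← hx]
  simp [pow_two, add_comm (h x)]

/-- translation -/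
theorem exists_h (h2 : (2 : F) ≠ 0) (hB : IsSF (σ := RingHom.id F) (-1) B) (hg : Inv B g)
    (hs : SI B g s) (hf : ∀ v, g v = v → s v = -v) :
    (∃ h, Inv B h ∧ ∀ x, h (s x) = s (g (h x))) ∧ ((∀ m, finrank F V = 2 * m → P1 F (Fin m)) →
      ∃ h, Inv B h ∧ (∀ x, h (s x) = s (g (h x))) ∧ IsUnit (h ^ 2 - 1)) := by
  obtain ⟨m, φ, d, A, hA, a1, a2, a3⟩ := exists_frame (t := s * g) h2 hB hs.anti hs.sq (hs.anti' hg)
    (fun x => by rw [End.mul_apply, End.mul_apply, hs.inv, hs.sq]) fun x h1 h3 => by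
      have h4 : g x = x := by rw [← hs.sq (g x), ← End.mul_apply s g, h3, h1]
      have h5 := hf x h4
      rw [h1, eq_neg_iff_add_eq_zero, ← two_smul F] at h5
      exact (smul_eq_zero.1 h5).resolve_left h2
  refine ⟨?_, fun hp => ?_⟩
  · obtain ⟨h, b1, b2, -⟩ := exists_conj φ hA a1 a2 a3 (Φ := 1) (by simp)
    exact ⟨h, b1, b2⟩
  · obtain ⟨Φ, c1, c2, c3⟩ := hp m (by rw [← φ.finrank_eq]; simp [two_mul]) d A hA
    obtain ⟨h, b1, b2, b3⟩ := exists_conj φ hA a1 a2 a3 c1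
    exact ⟨h, b1, b2, isUnit_of (fun x hx => b3 1 (by simp) c2 x (by simpa))
      fun x hx => b3 (-1) (by simp) c3 x (by simpa)⟩

/-- from an involution, a conjugating isometry and a commuting map of multiplier `-1` -/
theorem com_of (hs : SI B g s) (hh : Inv B h) (hc : ∀ x, h (s x) = s (g (h x))) {y : End F V}
    (hy : Anti B y) (hyh : ∀ x, y (h x) = h (y x)) : Com B g := by
  refine ⟨s * y, h, fun a b => by rw [End.mul_apply, End.mul_apply, hs.anti, hy, neg_neg], hh,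
    LinearMap.ext fun x => ?_⟩
  simp only [End.mul_apply]
  rw [hc, hyh, hs.inv]

theorem com_of_unit [Finite F] (hB : IsSF (σ := RingHom.id F) (-1) B) (hs : SI B g s) (hh : Inv B h)
    (hc : ∀ x, h (s x) = s (g (h x))) (hu : IsUnit (h ^ 2 - 1)) : Com B g := by
  obtain ⟨y, -, y2, y3⟩ := exists_norm_eq_of_isAdj hB hh (Or.inr hu) (s := -1) IsAdj.one.neg
    isUnit_one.neg (Commute.neg_one_right h)
  exact com_of hs hh hc (y := y) (fun a b => by simpa using y2 a b) fun x =>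
    (LinearMap.congr_fun (y3 h (Commute.refl h) (Commute.neg_one_right h)).eq x).symm

theorem com_of_sq (hs : SI B g s) (hh : Inv B h) (hc : ∀ x, h (s x) = s (g (h x))) {i : F}
    (hi : i * i = -1) : Com B g :=
  com_of hs hh hc (y := i • 1) (fun a b => by simp [← mul_assoc, hi]) fun x => by simp

end H97.Or
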